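import Cfsg.Agent.H299.Cons
import Cfsg.Agent.BiChar.SigR
import Cfsg.Agent.BiChar.Final
import Cfsg.Agent.CharThree.Rows

/-!
# Simple groups excluded by order or by `3 ∈ σ(S)`
-/

set_option autoImplicit false
set_option linter.unusedSectionVars false

namespace Cfsg.Agent.H299.Dead

open Cfsg Cfsg.Agent.SevenCases Cfsg.Agent.SigTab Subgroup

universe u

variable {S : Type u} [Group S] {φ : MulAut S} {L : Subgroup S}

theorem of_card (h : Act S φ L) {n : ℕ} (hc : Nat.card S = n) (hn : ¬ 1451520 ∣ n) : False :=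
  hn (hc ▸ h.dvd_card)

theorem of_sigma [Finite S] (h : Act S φ L) (h3 : 3 ∈ sigmaSet S) : False := by
  obtain ⟨-, -, T, M, hM, A, hA, hAp, hAc⟩ := h3
  have h1 := h.rank M hM.1.1 A hA hAp
  have h2 := hAc.trans h1
  norm_num at h2

theorem of_sigma' [Finite S] {P : ∀ (X : Type u) [Group X], Prop} (h : Act S φ L) (h1 : Sigma.Frame.SigNe.{u} P)
    (h2 : SigTab.SigThree.{u} P) (hP : P S) : False := by
  have := h.simple
  have h3 := h1 S hP
  obtain ⟨p, hp⟩ := Set.nonempty_iff_ne_empty.2 h3
  have h4 := h2 S hP p hp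
  rw [h4] at hp
  exact of_sigma h hp

theorem alt_six (h : Act S φ L) (e : S ≃* alternatingGroup (Fin 6)) : False := by
  refine of_card h (n := 360) ?_ (by norm_num)
  rw [Nat.card_congr e.toEquiv, nat_card_alternatingGroup]
  norm_num [Nat.factorial]

theorem alt_eight (h : Act S φ L) (e : S ≃* alternatingGroup (Fin 8)) : False := by
  refine of_card h (n := 20160) ?_ (by norm_num)
  rw [Nat.card_congr e.toEquiv, nat_card_alternatingGroup]
  norm_num [Nat.factorial]

theorem u33 (h : Act S φ L) (h' : ∃ (F : Type) (_ : Field F) (_ : Fintype F), Fintype.card F = 9 ∧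
    Nonempty (S ≃* PSU 3 F 3)) : False := by
  obtain ⟨F, _, _, hF, ⟨e⟩⟩ := h'
  exact of_card h ((Nat.card_congr e.toEquiv).trans (SmallSimple.PSLFacts.card_psu_three_three hF)) (by norm_num)

theorem tits (h : Act S φ L) (h' : Lie.IsoTits S) : False :=
  of_card h (BiChar.Small.card_of_isoTits h') (by norm_num)

theorem l43 (h : Act S φ L) (h' : PslOdd (fun n q => n = 4 ∧ q = 3) S) : False := by
  obtain ⟨F, _, _, n, -, ⟨rfl, hF⟩, ⟨e⟩⟩ := h'
  exact of_card h ((Nat.card_congr e.toEquiv).trans (CharThree.card_psl_four_three F hF)) (by norm_num)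

theorem u43 (h : Act S φ L) (h' : PsuOdd (fun n q => n = 4 ∧ q = 3) S) : False := by
  obtain ⟨F, _, _, n, q, -, hF, ⟨rfl, rfl⟩, ⟨e⟩⟩ := h'
  have hF9 : Fintype.card F = 9 := by rw [hF]; norm_num
  have hc : CharP F 3 := charP_of_card_eq_prime_pow (f := 2) (by rw [hF9]; norm_num)
  exact of_card h ((Nat.card_congr e.toEquiv).trans (OddHalf.D6.QThree.U43Tw.card_K hF9)) (by norm_num)

theorem g23 (h : Act S φ L) (h' : GTwoOdd (fun q => q = 3) S) : False := by
  obtain ⟨F, _, _, -, hF, ⟨e⟩⟩ := h'
  have h3 : Fintype.card (ZMod 3) = Fintype.card F := by rw [hF]; rfl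
  let φ : ZMod 3 ≃+* F := FiniteField.ringEquivOfCardEq h3
  refine of_card h ((Nat.card_congr e.toEquiv).trans ((Nat.card_congr
    (ChevalleyStructure.FieldIso.groupEquiv Lie.chevG2 φ).symm.toEquiv).trans OddHalf.Small.G23.card_G)) (by norm_num)

theorem o73 (h : Act S φ L) (h' : OmegaOdd (fun m q => m = 3 ∧ q = 3) S) : False := by
  have := h.fin
  exact of_sigma' h CharThree.SW.ne_o73 CharThree.sig_o73 h'

theorem o8p3 (h : Act S φ L) (h' : OmegaPlusOdd (fun m q => m = 4 ∧ q = 3) S) : False := by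
  have := h.fin
  exact of_sigma' h CharThree.SW.ne_o8p3 CharThree.sig_o8p3 h'

theorem o8m3 (h : Act S φ L) (h' : OmegaMinusOdd (fun m q => m = 4 ∧ q = 3) S) : False := by
  have := h.fin
  exact of_sigma' h CharThree.SW.ne_o8m3 CharThree.sig_o8m3 h'

theorem m22 (h : Act S φ L) (h' : Spor.IsoM22 S) : False :=
  of_card h (BiChar.Small.card_of_iso h' SporadicA.MathieuRecog.card_M22) (by norm_num)

theorem m23 (h : Act S φ L) (h' : Spor.IsoM23 S) : False :=
  of_card h (BiChar.Small.card_of_iso h' SporadicA.MathieuRecog.card_M23) (by norm_num)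

theorem m24 (h : Act S φ L) (h' : Spor.IsoM24 S) : False :=
  of_card h (BiChar.Small.card_of_iso h' S0364.result) (by norm_num)

theorem j2 (h : Act S φ L) (h' : Spor.IsoJ2 S) : False :=
  of_card h (BiChar.Small.card_of_iso h' S1619.result.2.2.2) (by norm_num)

theorem j3 (h : Act S φ L) (h' : Spor.IsoJ3 S) : False := by
  have := h.fin
  obtain ⟨-, z, Q, v, ρ, n, u, h1⟩ := KFacts.J3.exists_facts h'
  exact of_card h h1.card_K (by norm_num)

theorem j4 (h : Act S φ L) (h' : Spor.IsoJ4 S) : False :=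
  of_card h (BiChar.Small.card_of_iso h' S1703.result.2) (by norm_num)

theorem hs (h : Act S φ L) (h' : Spor.IsoHS S) : False :=
  of_card h (BiChar.Small.card_of_iso h' BiChar.Small.card_HS) (by norm_num)

theorem he (h : Act S φ L) (h' : Spor.IsoHe S) : False :=
  of_card h (BiChar.Small.card_of_iso h' S1695.result.2) (by norm_num)

theorem ru (h : Act S φ L) (h' : Spor.IsoRu S) : False :=
  of_card h (BiChar.Small.card_of_iso h' S1627.result.2.1) (by norm_num)

theorem co1 (h : Act S φ L) (h' : Spor.IsoCo1 S) : False := by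
  have := h.fin
  have := h.simple
  exact of_sigma h (Sigma.CoOne.mem_sigma h')

theorem fi22 (h : Act S φ L) (h' : Spor.IsoFi22 S) : False := by
  have := h.fin
  have := h.simple
  exact of_sigma h (Sigma.Fischer.mem_sigma22 h')

theorem fi23 (h : Act S φ L) (h' : Spor.IsoFi23 S) : False := by
  have := h.fin
  have := h.simple
  exact of_sigma h (Sigma.Fischer.mem_sigma23 h')

theorem fi24 (h : Act S φ L) (h' : Spor.IsoFi24' S) : False := by
  have := h.fin
  have := h.simple
  exact of_sigma h (Sigma.FiTF.mem_sigma24 h')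

theorem b (h : Act S φ L) (h' : Spor.IsoB S) : False := by
  have := h.fin
  have := h.simple
  exact of_sigma h (Sigma.BabyWit.mem_sigma h')

theorem m (h : Act S φ L) (h' : Spor.IsoM S) : False := by
  have := h.fin
  have := h.simple
  exact of_sigma h (Sigma.MonsterFin.mem_sigma h')

end Cfsg.Agent.H299.Dead
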