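import Cfsg.Agent.EvenType.CharTwoCent
import Cfsg.Agent.CharDeep.PowerDegrees
import Cfsg.Prelude.Def_KGroupFacts

/-!
# An outer involution whose fixed points have no normal 2-subgroup: not of characteristic 2 type
-/

set_option autoImplicit false
set_option linter.unusedSectionVars false

namespace Cfsg.Agent.H299.OddRow

open Subgroup Cfsg

universe u v w

theorem conjNormal_eq_one {G : Type u} [Group G] {S : Subgroup G} [S.Normal] (hc : centralizer (S : Set G) = ⊥) {g : G}
    (h : ∀ s : S, g * s * g⁻¹ = s) : g = 1 := by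
  have : g ∈ centralizer (S : Set G) := by
    rw [mem_centralizer_iff]
    intro s hs
    exact (mul_inv_eq_iff_eq_mul.1 (h ⟨s, hs⟩)).symm
  rwa [hc, mem_bot] at this

theorem core {G : Type u} [Group G] [Finite G] (hG : IsCharacteristicTwoType G) {S : Subgroup G} [S.Normal]
    (hc : centralizer (S : Set G) = ⊥) (h3 : 3 ∣ S.index) (hn : ∀ N : Subgroup G, N.Normal → N.index = 3 → False)
    {X : Type v} [Group X] (e : S ≃* X) {P : Type w} [Group P] [Finite P] (ψ : MulAut X →* P)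
    (hψs : Function.Surjective ψ) (hψ : ψ.ker = Inn X)
    (hodd : ∀ A : Subgroup P, Odd (Nat.card A) → ∀ a ∈ A, ∀ b ∈ A, a * b = b * a)
    (hconj : ∀ a b : P, a * a = 1 → a ≠ 1 → b * b = 1 → b ≠ 1 → ∃ c, c * a * c⁻¹ = b)
    (γ : MulAut X) (hγ : γ * γ = 1) (hγi : γ ∉ Inn X) (hK1 : ∃ x, x ≠ 1 ∧ γ x = x)
    (hK : ∀ N : Subgroup X, (∀ n ∈ N, γ n = n) → IsPGroup 2 N → (∀ k, γ k = k → ∀ n ∈ N, k * n * k⁻¹ ∈ N) → N = ⊥) :
    False := by
  classical
  let A : G →* MulAut X := (MulAut.congr e).toMonoidHom.comp (MulAut.conjNormal (H := S))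
  have hA : ∀ g (s : S), A g (e s) = e ⟨g * s * g⁻¹, (inferInstance : S.Normal).conj_mem s s.2 g⟩ := by
    intro g s
    show e (MulAut.conjNormal g (e.symm (e s))) = _
    rw [e.symm_apply_apply]
    congr 1
  have hAS : ∀ s : S, A s = MulAut.conj (e s) := by
    intro s
    ext x
    obtain ⟨t, rfl⟩ := e.surjective x
    rw [hA, MulAut.conj_apply, ← map_mul, ← map_inv, ← map_mul]
    congr 1
  have hA1 : ∀ g, A g = 1 → g = 1 := by
    intro g hg
    refine conjNormal_eq_one hc fun s => ?_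
    have h1 := hA g s
    rw [hg] at h1
    exact (congrArg Subtype.val (e.injective h1)).symm
  have hker : ∀ g, ψ (A g) = 1 → g ∈ S := by
    intro g hg
    have h1 : A g ∈ ψ.ker := hg
    rw [hψ] at h1
    obtain ⟨x, hx⟩ := h1
    obtain ⟨s, rfl⟩ := e.surjective x
    have h2 : A ((s : G)⁻¹ * g) = 1 := by
      rw [map_mul, map_inv, hAS, hx, inv_mul_cancel]
    have h3 := hA1 _ h2
    rw [inv_mul_eq_one] at h3
    rw [← h3]
    exact s.2
  -- an element of order 2 in the image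
  have heven : Even (Nat.card (ψ.comp A).range) := by
    by_contra hne
    rw [Nat.not_even_iff_odd] at hne
    have h1 : commutator G ≤ S := by
      rw [commutator_def, commutator_le]
      intro a _ b _
      apply hker
      have h2 := hodd _ hne (ψ (A a)) ⟨a, rfl⟩ (ψ (A b)) ⟨b, rfl⟩
      rw [commutatorElement_def, map_mul, map_mul, map_mul, map_inv, map_inv, map_mul, map_mul, map_mul, map_inv,
        map_inv, h2]
      group
    obtain ⟨N, hN, hN3⟩ := CharDeep.PowerDegrees.exists_normal_index_eq_prime Nat.prime_three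
      (h3.trans (Subgroup.index_dvd_of_le h1))
    exact hn N hN hN3
  obtain ⟨⟨p, g, hg⟩, hp⟩ := exists_prime_orderOf_dvd_card' (G := (ψ.comp A).range) 2 heven.two_dvd
  have hp2 : p * p = 1 := by
    have h1 := pow_orderOf_eq_one (⟨p, g, hg⟩ : (ψ.comp A).range)
    rw [hp, sq] at h1
    exact congrArg Subtype.val h1
  have hp1 : p ≠ 1 := by
    rintro rfl
    have h1 : orderOf (⟨1, g, hg⟩ : (ψ.comp A).range) = 1 := by
      rw [orderOf_eq_one_iff]
      rfl
    omega
  -- conjugate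
  obtain ⟨c, hcc⟩ := hconj (ψ γ) p (by rw [← map_mul, hγ, map_one]) (fun h => hγi (by rw [← hψ]; exact h)) hp2 hp1
  obtain ⟨α, rfl⟩ := hψs c
  have h1 : A g * (α * γ * α⁻¹)⁻¹ ∈ ψ.ker := by
    rw [MonoidHom.mem_ker, map_mul, map_inv, map_mul, map_mul, map_inv, hcc]
    have : ψ (A g) = p := hg
    rw [this, mul_inv_cancel]
  rw [hψ] at h1
  obtain ⟨x, hx⟩ := h1
  obtain ⟨s, rfl⟩ := e.surjective x
  set u : G := (s : G)⁻¹ * g with hu
  have hAu : A u = α * γ * α⁻¹ := by
    rw [hu, map_mul, map_inv, hAS, hx]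
    group
  have huu : u * u = 1 := by
    apply hA1
    rw [map_mul, hAu]
    calc α * γ * α⁻¹ * (α * γ * α⁻¹) = α * (γ * γ) * α⁻¹ := by group
      _ = 1 := by rw [hγ]; group
  have hu1 : u ≠ 1 := by
    intro h
    rw [h, map_one] at hAu
    apply hγi
    have : γ = 1 := by
      have h2 : α⁻¹ * (α * γ * α⁻¹) * α = γ := by group
      rw [← h2, ← hAu]
      group
    rw [this]
    exact one_mem _
  have hou : orderOf u = 2 := orderOf_eq_prime (by rw [sq]; exact huu) hu1
  have hchar := EvenType.CharTwoCent.char2_centralizer hG hou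
  -- fixed points
  have hfix : ∀ t : S, (t : G) * u = u * t ↔ γ (α⁻¹ (e t)) = α⁻¹ (e t) := by
    intro t
    have h2 : (t : G) * u = u * t ↔ A u (e t) = e t := by
      rw [hA]
      constructor
      · intro h
        congr 1
        apply Subtype.ext
        show u * t * u⁻¹ = t
        rw [← h]
        group
      · intro h
        have h4 : u * t * u⁻¹ = t := congrArg Subtype.val (e.injective h)
        exact (mul_inv_eq_iff_eq_mul.1 h4).symm
    rw [h2, hAu]
    constructor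
    · intro h
      have h4 : α (γ (α⁻¹ (e t))) = e t := h
      apply α.injective
      rw [h4]
      show e t = (α * α⁻¹) (e t)
      rw [mul_inv_cancel]
      rfl
    · intro h
      show α (γ (α⁻¹ (e t))) = e t
      rw [h]
      show (α * α⁻¹) (e t) = e t
      rw [mul_inv_cancel]
      rfl
  set H := centralizer ({u} : Set G) with hH
  have : Fact (Nat.Prime 2) := ⟨Nat.prime_two⟩
  have hpn : (pCore 2 H).Normal := Lib.Cores.pCore_normal 2
  have hpp : IsPGroup 2 (pCore 2 H) := Lib.Cores.pCore_isPGroup 2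
  -- the 2-subgroup
  let D : Subgroup S := ((pCore 2 H).map H.subtype).comap S.subtype
  have hD : ∀ t : S, t ∈ D ↔ ∃ h : (t : G) ∈ H, (⟨t, h⟩ : H) ∈ pCore 2 H := by
    intro t
    constructor
    · rintro ⟨y, hy, hyt⟩
      have : (t : G) = y := hyt.symm
      refine ⟨by rw [this]; exact y.2, ?_⟩
      have h4 : (⟨t, by rw [this]; exact y.2⟩ : H) = y := Subtype.ext this
      rw [h4]
      exact hy
    · rintro ⟨h, h'⟩
      exact ⟨⟨t, h⟩, h', rfl⟩
  have hDbot : D = ⊥ := by
    have h2 : (D.map e.toMonoidHom).map (α⁻¹ : MulAut X).toMonoidHom = ⊥ := by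
      apply hK
      · rintro _ ⟨_, ⟨t, ht, rfl⟩, rfl⟩
        obtain ⟨h4, -⟩ := (hD t).1 ht
        exact (hfix t).1 (mem_centralizer_singleton_iff.1 h4)
      · refine IsPGroup.map (IsPGroup.map ?_ _) _
        intro ⟨t, ht⟩
        obtain ⟨h4, h5⟩ := (hD t).1 ht
        obtain ⟨k, hk⟩ := hpp ⟨_, h5⟩
        refine ⟨k, ?_⟩
        apply Subtype.ext
        apply Subtype.ext
        have h6 := congrArg (fun z : pCore 2 H => ((z : H) : G)) hk
        simpa using h6
      · intro k hk n hn'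
        obtain ⟨_, ⟨t, ht, rfl⟩, rfl⟩ := hn'
        obtain ⟨y, hy⟩ := e.surjective (α k)
        have hky : k = α⁻¹ (e y) := by
          rw [hy]
          show k = (α⁻¹ * α) k
          rw [inv_mul_cancel]
          rfl
        have hyH : (y : G) ∈ H := mem_centralizer_singleton_iff.2 ((hfix y).2 (by rw [← hky]; exact hk))
        obtain ⟨h4, h5⟩ := (hD t).1 ht
        refine ⟨e (y * t * y⁻¹), ⟨y * t * y⁻¹, ?_, rfl⟩, ?_⟩
        · refine (hD _).2 ⟨mul_mem (mul_mem hyH h4) (inv_mem hyH), ?_⟩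
          exact hpn.conj_mem _ h5 ⟨y, hyH⟩
        · rw [hky]
          show α⁻¹ (e (y * t * y⁻¹)) = α⁻¹ (e y) * α⁻¹ (e t) * (α⁻¹ (e y))⁻¹
          rw [map_mul, map_mul, map_inv, map_mul, map_mul, map_inv]
    rw [Subgroup.map_eq_bot_iff_of_injective _ (α⁻¹ : MulAut X).injective,
      Subgroup.map_eq_bot_iff_of_injective _ e.injective] at h2
    exact h2
  -- every fixed point is trivial
  obtain ⟨x, hx1, hxf⟩ := hK1
  obtain ⟨y, hy⟩ := e.surjective (α x)
  have hxy : x = α⁻¹ (e y) := by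
    rw [hy]
    show x = (α⁻¹ * α) x
    rw [inv_mul_cancel]
    rfl
  have hyH : (y : G) ∈ H := mem_centralizer_singleton_iff.2 ((hfix y).2 (by rw [← hxy]; exact hxf))
  have hycore : (⟨y, hyH⟩ : H) ∈ pCore 2 H := by
    apply hchar
    rw [mem_centralizer_iff]
    intro q hq
    have h4 : (y : G) * (q : G) * (y : G)⁻¹ * (q : G)⁻¹ = 1 := by
      have h5 : (⟨(y : G) * (q : G) * (y : G)⁻¹ * (q : G)⁻¹, by
          have := (inferInstance : S.Normal).conj_mem (y : G)⁻¹ (inv_mem y.2) q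
          have h6 : (y : G) * (q : G) * (y : G)⁻¹ * (q : G)⁻¹ = y * (q * (y : G)⁻¹ * (q : G)⁻¹) := by group
          rw [h6]
          exact mul_mem y.2 this⟩ : S) ∈ D := by
        refine (hD _).2 ⟨mul_mem (mul_mem (mul_mem hyH q.2) (inv_mem hyH)) (inv_mem q.2), ?_⟩
        exact mul_mem (hpn.conj_mem _ hq ⟨y, hyH⟩) (inv_mem hq)
      rw [hDbot, mem_bot] at h5
      exact congrArg Subtype.val h5
    apply Subtype.ext
    show (q : G) * y = y * q
    rw [mul_inv_eq_one, mul_inv_eq_iff_eq_mul] at h4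
    exact h4.symm
  have h5 : y ∈ D := (hD y).2 ⟨hyH, hycore⟩
  rw [hDbot, mem_bot] at h5
  apply hx1
  rw [hxy, h5, map_one, map_one]

theorem perm_comm : ∀ a b : Equiv.Perm (Fin 3), Equiv.Perm.sign a = 1 → Equiv.Perm.sign b = 1 → a * b = b * a := by
  decide

theorem perm_conj : ∀ a b : Equiv.Perm (Fin 3), a * a = 1 → a ≠ 1 → b * b = 1 → b ≠ 1 → ∃ c, c * a * c⁻¹ = b := by
  decide

section prod

variable {C : Type w} [CommGroup C] [Finite C]

theorem hodd (A : Subgroup (Equiv.Perm (Fin 3) × C)) (hA : Odd (Nat.card A)) (a : Equiv.Perm (Fin 3) × C) (ha : a ∈ A)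
    (b : Equiv.Perm (Fin 3) × C) (hb : b ∈ A) : a * b = b * a := by
  have h1 : ∀ a ∈ A, Equiv.Perm.sign a.1 = 1 := by
    intro a ha
    have h2 : a ^ Nat.card A = 1 := by
      have := pow_card_eq_one' (x := (⟨a, ha⟩ : A))
      exact congrArg Subtype.val this
    have h3 : a.1 ^ Nat.card A = 1 := congrArg Prod.fst h2
    have h4 := congrArg Equiv.Perm.sign h3
    rw [map_pow, map_one] at h4
    rcases Int.units_eq_one_or (Equiv.Perm.sign a.1) with h5 | h5
    · exact h5
    · rw [h5, hA.neg_one_pow] at h4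
      exact absurd h4 (by decide)
  exact Prod.ext (perm_comm _ _ (h1 a ha) (h1 b hb)) (mul_comm _ _)

theorem hconj (hC : Odd (Nat.card C)) (a b : Equiv.Perm (Fin 3) × C) (ha : a * a = 1) (ha1 : a ≠ 1) (hb : b * b = 1)
    (hb1 : b ≠ 1) : ∃ c, c * a * c⁻¹ = b := by
  have h1 : ∀ z : C, z * z = 1 → z = 1 := by
    intro z hz
    have h2 : orderOf z ∣ 2 := orderOf_dvd_of_pow_eq_one (by rw [sq]; exact hz)
    have h3 : orderOf z ∣ Nat.card C := orderOf_dvd_natCard z
    rcases (Nat.dvd_prime Nat.prime_two).1 h2 with h4 | h4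
    · exact orderOf_eq_one_iff.1 h4
    · rw [h4] at h3
      exact absurd h3 hC.not_two_dvd_nat
  have ha2 : a.2 = 1 := h1 _ (congrArg Prod.snd ha)
  have hb2 : b.2 = 1 := h1 _ (congrArg Prod.snd hb)
  obtain ⟨c, hc⟩ := perm_conj a.1 b.1 (congrArg Prod.fst ha) (fun h => ha1 (Prod.ext h ha2)) (congrArg Prod.fst hb)
    (fun h => hb1 (Prod.ext h hb2))
  refine ⟨(c, 1), Prod.ext hc ?_⟩
  show 1 * a.2 * 1⁻¹ = b.2
  rw [ha2, hb2]
  simp

end prod

end Cfsg.Agent.H299.OddRow
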