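import Cfsg.Agent.H299.Cons
import Cfsg.Agent.KFacts.OutCyc.Minus
import Cfsg.Agent.LieClassical.OrthForms
import Cfsg.Agent.LieClassical.OrthCenter
import Cfsg.Agent.LieClassical.OrthFinite
import Cfsg.Agent.LieClassical.OmegaReindex
import Cfsg.Agent.Sigma.RowsSpOm

/-!
# Orthogonal groups in characteristic 2: the centre trick
-/

set_option autoImplicit false
set_option linter.unusedSectionVars false

namespace Cfsg.Agent.H299.RowD4

open QuadraticMap Module Subgroup Cfsg
open Cfsg.Agent.LieClassical.OrthCore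

variable {F V : Type*} [Field F] [Finite F] [CharP F 2] [AddCommGroup V] [Module F V] [FiniteDimensional F V]
  {Q : QuadraticForm F V}

theorem two_zero : (2 : F) = 0 := CharTwo.two_eq_zero

theorem two_V (F : Type*) {V : Type*} [Field F] [CharP F 2] [AddCommGroup V] [Module F V] (v : V) : v + v = 0 := by
  have h : (2 : F) = 0 := CharTwo.two_eq_zero
  rw [← two_smul F v, h, zero_smul]

theorem sq_inj {x y : F} (h : x ^ 2 = y ^ 2) : x = y := by
  have h1 : (x - y) ^ 2 = 0 := by
    have h2 := two_zero (F := F)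
    linear_combination h + (y ^ 2 - x * y) * h2
  exact sub_eq_zero.1 (pow_eq_zero_iff two_ne_zero |>.1 h1)

/-- a linear functional is represented by a vector -/
theorem exists_rep (hQ : Nondeg Q) (f : V →ₗ[F] F) : ∃ u : V, ∀ v, polar Q u v = f v := by
  have hinj : Function.Injective (polarBilin Q : V →ₗ[F] V →ₗ[F] F) := by
    rw [← LinearMap.ker_eq_bot, LinearMap.ker_eq_bot']
    intro m hm
    exact hQ m fun y => LinearMap.congr_fun hm y
  have hfr : finrank F V = finrank F (Dual F V) := (Subspace.dual_finrank_eq).symm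
  obtain ⟨u, hu⟩ := (LinearMap.injective_iff_surjective_of_finrank_eq_finrank hfr).1 hinj f
  exact ⟨u, fun v => by rw [← hu]; rfl⟩

/-- **the one-parameter group through an involution** -/
theorem core (hQ : Nondeg Q) {t : V ≃ₗ[F] V} (ht : t ∈ O Q) (htt : t * t = 1) (ht1 : t ≠ 1)
    (hrefl : ∀ u, Q u = 1 → ¬ ∀ v, t v = v + polar Q u v • u) :
    ∃ T : F → (V ≃ₗ[F] V), (∀ l m, T l * T m = T (l + m)) ∧ (∀ l, T l ∈ O Q) ∧ (∀ l, T l = 1 → l = 0) ∧
      (∀ l, T l = t → l = 1) ∧ ∀ g ∈ O Q, g * t = t * g → ∀ l, T l * g = g * T l := by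
  have h2 := two_zero (F := F)
  set N : V →ₗ[F] V := (t : V →ₗ[F] V) - LinearMap.id with hN
  have htN : ∀ v, t v = v + N v := by
    intro v
    rw [hN]
    simp
  have hNv : ∀ v, N v = t v - v := fun v => by rw [htN]; abel
  have htt' : ∀ v, t (t v) = v := fun v => by
    have := LinearEquiv.congr_fun htt v
    exact this
  have hNN : ∀ v, N (N v) = 0 := by
    intro v
    rw [hNv (N v), hNv v, map_sub, htt']
    have e : v - t v - (t v - v) = (v + v) - (t v + t v) := by abel
    rw [e, two_V F, two_V F, sub_zero]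
  have hBN : ∀ v w, polar Q (N v) w = polar Q v (N w) := by
    intro v w
    have h3 := polar_map ht (t v) w
    rw [htt'] at h3
    rw [hNv v, polar_sub_left, ← h3, htN w, polar_add_right]
    ring
  have hBNN : ∀ v w, polar Q (N v) (N w) = 0 := by
    intro v w
    rw [hBN, hNN, polar_zero_right]
  have hQN : ∀ v, Q (N v) = polar Q v (N v) := by
    intro v
    have h3 := mem_O.1 ht v
    rw [htN, Q_add] at h3
    linear_combination h3 - polar Q v (N v) * h2
  -- the functional
  set s : F ≃+* F := (frobeniusEquiv F 2).symm with hs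
  have hs2 : ∀ x, s x ^ 2 = x := fun x => by
    have := (frobeniusEquiv F 2).apply_symm_apply x
    rw [frobeniusEquiv_apply, frobenius_def] at this
    exact this
  have hs2' : ∀ x, s (x ^ 2) = x := fun x => sq_inj (hs2 _)
  let f : V →ₗ[F] F :=
    { toFun := fun v => s (Q (N v))
      map_add' := fun v w => by
        rw [map_add, Q_add, hBNN, add_zero, map_add]
      map_smul' := fun c v => by
        rw [map_smul, QuadraticMap.map_smul, smul_eq_mul, map_mul, ← pow_two, hs2']
        rfl }
  have hf : ∀ v, f v = s (Q (N v)) := fun v => rfl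
  have hf2 : ∀ v, f v ^ 2 = Q (N v) := fun v => by rw [hf, hs2]
  obtain ⟨u, hu⟩ := exists_rep hQ f
  -- `u = N w`
  obtain ⟨w, hw⟩ : ∃ w, N w = u := by
    have h3 : f ∈ (LinearMap.range N.dualMap) := by
      rw [LinearMap.range_dualMap_eq_dualAnnihilator_ker, Submodule.mem_dualAnnihilator]
      intro v hv
      rw [hf, LinearMap.mem_ker.1 hv, QuadraticMap.map_zero, map_zero]
    obtain ⟨g, hg⟩ := h3
    obtain ⟨w, hw⟩ := exists_rep hQ g
    refine ⟨w, ?_⟩
    have h4 : ∀ v, polar Q (N w - u) v = 0 := by
      intro v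
      rw [polar_sub_left, hBN, hw, hu, ← hg]
      exact sub_self _
    exact sub_eq_zero.1 (hQ _ h4)
  have hNu : N u = 0 := by rw [← hw, hNN]
  have huu : polar Q u u = 0 := by rw [polar_self', h2, zero_mul]
  have hQu : Q u = 0 ∨ Q u = 1 := by
    have h3 : Q u = f w ^ 2 := by rw [hf2, hw]
    have h4 : Q u = f w := by
      have := hQN w
      rw [hw, polar_comm, hu] at this
      exact this
    have h5 : f w * (f w - 1) = 0 := by
      have : f w ^ 2 = f w := by rw [← h3, h4]
      linear_combination this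
    rcases mul_eq_zero.1 h5 with h6 | h6
    · left; rw [h4, h6]
    · right; rw [h4]; exact sub_eq_zero.1 h6
  have hBuN : ∀ v, polar Q u (N v) = 0 := fun v => by rw [← hBN, hNu, polar_zero_left]
  -- the family
  classical
  let μ : F → F := fun l => if Q u = 0 then l ^ 2 + l else l
  have hμ : ∀ l m, μ (l + m) = μ l + μ m := by
    intro l m
    simp only [μ]
    split_ifs
    · linear_combination l * m * h2
    · rfl
  let g : F → (V →ₗ[F] V) := fun l => LinearMap.id + l • N + μ l • (f.smulRight u)
  have hg : ∀ l v, g l v = v + l • N v + (μ l * f v) • u := by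
    intro l v
    simp [g, smul_smul]
  have hfg : ∀ l v, f (g l v) = f v := by
    intro l v
    rw [hg, map_add, map_add, map_smul, map_smul, ← hu (N v), hBuN, ← hu u, huu]
    simp
  have hNg : ∀ l v, N (g l v) = N v := by
    intro l v
    rw [hg, map_add, map_add, map_smul, map_smul, hNN, hNu]
    simp
  have hgg : ∀ l m v, g l (g m v) = g (l + m) v := by
    intro l m v
    rw [hg l, hfg, hNg, hg m, hg (l + m), hμ]
    module
  have hg0 : ∀ v, g 0 v = v := by
    intro v
    have h3 : μ 0 = 0 := by simp [μ]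
    rw [hg, h3]
    simp
  have hinv : ∀ l v, g l (g l v) = v := by
    intro l v
    rw [hgg]
    have h3 : l + l = 0 := by linear_combination l * h2
    rw [h3, hg0]
  let T : F → (V ≃ₗ[F] V) := fun l => LinearEquiv.ofInvolutive (g l) (hinv l)
  have hT : ∀ l v, T l v = v + l • N v + (μ l * f v) • u := fun l v => hg l v
  refine ⟨T, ?_, ?_, ?_, ?_, ?_⟩
  · intro l m
    ext v
    exact hgg l m v
  · intro l v
    rw [hT, add_assoc, Q_add, Q_add, QuadraticMap.map_smul, QuadraticMap.map_smul, polar_add_right, polar_smul_right,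
      polar_smul_right, polar_smul_left, polar_smul_right, ← hQN, ← hf2, polar_comm _ (N v) u, hBuN, polar_comm _ v u, hu]
    simp only [smul_eq_mul, μ]
    rcases hQu with h3 | h3
    · rw [h3, if_pos rfl]
      linear_combination (f v ^ 2 * (l ^ 2 + l)) * h2
    · rw [h3, if_neg one_ne_zero]
      linear_combination (f v ^ 2 * (l ^ 2 + l)) * h2
  · intro l hl
    by_contra hl0
    have h3 : ∀ v, l • N v + (μ l * f v) • u = 0 := by
      intro v
      have := LinearEquiv.congr_fun hl v
      rw [hT, add_assoc] at this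
      exact left_eq_add.1 this.symm
    rcases hQu with h4 | h4
    · have h5 : ∀ v, f v = 0 := by
        intro v
        have h6 : N v = (-(l⁻¹ * (μ l * f v))) • u := by
          have h7 : l⁻¹ • (l • N v + (μ l * f v) • u) = 0 := by rw [h3, smul_zero]
          rw [smul_add, smul_smul, inv_mul_cancel₀ hl0, one_smul, smul_smul] at h7
          rw [neg_smul]
          exact eq_neg_of_add_eq_zero_left h7
        have h7 : Q (N v) = 0 := by rw [h6, QuadraticMap.map_smul, h4, smul_zero]
        rw [← hf2] at h7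
        exact pow_eq_zero_iff two_ne_zero |>.1 h7
      apply ht1
      ext v
      have h6 := h3 v
      rw [h5, mul_zero, zero_smul, add_zero] at h6
      rw [htN, (smul_eq_zero.1 h6).resolve_left hl0, add_zero]
      rfl
    · have hμl : μ l = l := by
        simp only [μ]
        rw [h4, if_neg one_ne_zero]
      refine hrefl u h4 fun v => ?_
      have h6 := h3 v
      rw [hμl, mul_smul, ← smul_add] at h6
      have h7 := (smul_eq_zero.1 h6).resolve_left hl0
      have h8 : N v = f v • u := by
        have h9 := two_V F (f v • u)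
        have h10 : N v = (N v + f v • u) - (f v • u + f v • u) + f v • u := by abel
        rw [h10, h7, h9]
        simp
      rw [htN, h8, hu]
  · intro l hl
    by_contra hl1
    have hl0 : l - 1 ≠ 0 := sub_ne_zero.2 hl1
    have h3 : ∀ v, (l - 1) • N v + (μ l * f v) • u = 0 := by
      intro v
      have := LinearEquiv.congr_fun hl v
      rw [hT, htN, add_assoc] at this
      have h4 := add_left_cancel this
      rw [sub_smul, one_smul]
      nth_rewrite 2 [← h4]
      abel
    have h5 : ∀ v, N v = (-((l - 1)⁻¹ * (μ l * f v))) • u := by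
      intro v
      have h7 : (l - 1)⁻¹ • ((l - 1) • N v + (μ l * f v) • u) = 0 := by rw [h3, smul_zero]
      rw [smul_add, smul_smul, inv_mul_cancel₀ hl0, one_smul, smul_smul] at h7
      rw [neg_smul]
      exact eq_neg_of_add_eq_zero_left h7
    rcases hQu with h4 | h4
    · apply ht1
      ext v
      have h7 : Q (N v) = 0 := by rw [h5, QuadraticMap.map_smul, h4, smul_zero]
      rw [← hf2] at h7
      have h8 : f v = 0 := pow_eq_zero_iff two_ne_zero |>.1 h7
      rw [htN, h5, h8]
      simp
    · have hμl : μ l = l := by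
        simp only [μ]
        rw [h4, if_neg one_ne_zero]
      have h6 : ∀ v, f v = 0 := by
        intro v
        have h7 : f v ^ 2 = ((l - 1)⁻¹ * (l * f v)) ^ 2 := by
          rw [hf2, h5, QuadraticMap.map_smul, h4, hμl, smul_eq_mul]
          ring
        have h8 := sq_inj h7
        have h9 : (l - 1) * f v = l * f v := by
          rw [h8, ← mul_assoc, mul_inv_cancel₀ hl0, one_mul, ← h8]
        linear_combination -h9
      have h7 : u = 0 := hQ u fun y => by rw [hu, h6]
      rw [h7, QuadraticMap.map_zero] at h4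
      exact zero_ne_one h4
  · intro k hk hkt l
    have hkN : ∀ v, N (k v) = k (N v) := by
      intro v
      have h3 := LinearEquiv.congr_fun hkt v
      change k (t v) = t (k v) at h3
      rw [hNv, ← h3, hNv, map_sub]
    have hkf : ∀ v, f (k v) = f v := by
      intro v
      apply sq_inj
      rw [hf2, hf2, hkN, mem_O.1 hk]
    have hku : k u = u := by
      have h3 : ∀ v, polar Q (k u - u) v = 0 := by
        intro v
        obtain ⟨v, rfl⟩ := k.surjective v
        rw [polar_sub_left, polar_map hk, hu, hu, hkf, sub_self]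
      exact sub_eq_zero.1 (hQ _ h3)
    ext v
    change T l (k v) = k (T l v)
    rw [hT, hT, hkN, hkf, map_add, map_add, map_smul, map_smul, hku]

end Cfsg.Agent.H299.RowD4

namespace Cfsg.Agent.H299.RowD4

open QuadraticMap Module Subgroup Cfsg
open Cfsg.Agent.LieClassical.OrthCore Cfsg.Agent.LieClassical.OrthSimple Cfsg.Agent.LieClassical.OrthTrans Cfsg.Agent.LieClassical

section main

variable {F ι : Type} [Field F] [Fintype F] [CharP F 2] [Fintype ι] [DecidableEq ι] [Nonempty ι] {Q : QuadraticForm F (ι → F)}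

/-- **the centre trick** -/
theorem false_of (hG : Good Q) (h4 : Fintype.card ι ≠ 4) (h8 : 8 ≤ Fintype.card F) {b : ↥(E Q)}
    {L : Subgroup ↥(E Q)} (h : Act ↥(E Q) (MulAut.conj b) L) : False := by
  classical
  have h2 : (2 : F) = 0 := CharTwo.two_eq_zero
  obtain ⟨t, htL, ht1, htt, -, htz⟩ := h.ct
  have hbt : b * t = t * b := by
    have h1 := h.fix t htL
    rw [MulAut.conj_apply] at h1
    exact mul_inv_eq_iff_eq_mul.1 h1
  have htE : (t : (ι → F) ≃ₗ[F] (ι → F)) ∈ O Q := E_le_O t.2
  obtain ⟨T, hTT, hTO, hT1, hTt, hTc⟩ := core (Q := Q) hG.nondeg htE (congrArg Subtype.val htt)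
    (fun h => ht1 (Subtype.ext h)) (fun u hu hv => by
      refine KFacts.OutCyc.Minus.refl_notMem hG h4 (e := u) (by rw [hu]; exact one_ne_zero) (fun v => ?_) t.2
      rw [hv, hu, inv_one, one_mul, sub_eq_add_neg]
      congr 1
      exact eq_neg_of_add_eq_zero_left (two_V F _))
  have hll : ∀ l : F, l + l = 0 := fun l => by linear_combination l * h2
  have hT0 : T 0 = 1 := by
    have h1 := hTT 0 0
    rw [add_zero] at h1
    exact mul_eq_left.1 h1
  have key : ∀ l, T l ∈ E Q → l = 0 ∨ l = 1 := by
    intro l hl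
    have h1 := htz ⟨T l, hl⟩ (Subtype.ext (by
      show T l * T l = 1
      rw [hTT, hll, hT0])) (by
      rw [MulAut.conj_apply, mul_inv_eq_iff_eq_mul]
      apply Subtype.ext
      exact (hTc b (E_le_O b.2) (congrArg Subtype.val hbt) l).symm) (fun c _ hct => by
      apply Subtype.ext
      exact hTc c (E_le_O c.2) (congrArg Subtype.val hct) l)
    rcases h1 with h1 | h1
    · exact Or.inl (hT1 l (congrArg Subtype.val h1))
    · exact Or.inr (hTt l (congrArg Subtype.val h1))
  obtain ⟨l, hl⟩ : ∃ l : F, l ∉ ({0, 1} : Finset F) := by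
    by_contra hcon
    push Not at hcon
    have h1 : Fintype.card F ≤ ({0, 1} : Finset F).card := by
      rw [← Finset.card_univ]
      exact Finset.card_le_card fun x _ => hcon x
    have h3 : ({0, 1} : Finset F).card ≤ 2 := Finset.card_le_two
    omega
  obtain ⟨m, hm⟩ : ∃ m : F, m ∉ ({0, 1, l, l + 1} : Finset F) := by
    by_contra hcon
    push Not at hcon
    have h1 : Fintype.card F ≤ ({0, 1, l, l + 1} : Finset F).card := by
      rw [← Finset.card_univ]
      exact Finset.card_le_card fun x _ => hcon x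
    have h3 : ({0, 1, l, l + 1} : Finset F).card ≤ 4 := Finset.card_le_four
    omega
  simp only [Finset.mem_insert, Finset.mem_singleton, not_or] at hl hm
  have e1 : T l ∉ E Q := fun h1 => by
    rcases key l h1 with h3 | h3
    · exact hl.1 h3
    · exact hl.2 h3
  have e2 : T m ∉ E Q := fun h1 => by
    rcases key m h1 with h3 | h3
    · exact hm.1 h3
    · exact hm.2.1 h3
  have e3 := KFacts.OutCyc.Minus.mul_mem_E hG h2 h4 (hTO l) (hTO m) e1 e2
  rw [hTT] at e3
  rcases key _ e3 with h3 | h3
  · exact hm.2.2.1 (by linear_combination h3 - hll l)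
  · exact hm.2.2.2 (by linear_combination h3 - hll l)

end main

/-- **`Ω₈⁺(q)`, `q = 2^f`, `f > 1` odd** -/
theorem d4_inner {F : Type} [Field F] [Fintype F] {f : ℕ} (hF : Fintype.card F = 2 ^ f) (hf : Odd f) (hf1 : f ≠ 1)
    {b : POmega F (quadFormPlus 4 F)} {L : Subgroup (POmega F (quadFormPlus 4 F))} (h : In _ b L) : False := by
  have hc : CharP F 2 := by
    have : Fact (Nat.Prime 2) := ⟨Nat.prime_two⟩
    exact charP_of_card_eq_prime_pow (f := f) hF
  have h8 : 8 ≤ Fintype.card F := by
    rw [hF]
    have : 3 ≤ f := by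
      obtain ⟨k, rfl⟩ := hf
      omega
    calc 8 = 2 ^ 3 := by norm_num
      _ ≤ 2 ^ f := Nat.pow_le_pow_right (by norm_num) this
  have hQ := OrthForms.nondeg_plusForm 4 F
  have hd : 5 ≤ Fintype.card (Fin 4 ⊕ Fin 4) := by decide
  have hG : Good (OrthForms.plusForm 4 F) :=
    OrthFinite.good_of_finite hQ (by rwa [Module.finrank_fintype_fun_eq_card])
  have P := Sigma.Orth.pairs_plus (F := F) (le_refl 4)
  have hbot : Subgroup.center (Cfsg.Omega F (⇑(OrthForms.plusForm 4 F))) = ⊥ :=
    OrthCenter.center_omega_eq_bot_char_two (CharTwo.two_eq_zero) (OmegaReindex.nondegenerate_of_left _ hQ)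
      (by decide) ⟨_, (P.hyp 0).left_ne, (P.hyp 0).left⟩
  let e1 : Cfsg.Omega F ⇑(OrthForms.plusForm 4 F) ≃* E (OrthForms.plusForm 4 F) :=
    (OrthFinite.omegaEquiv _).trans (MulEquiv.subgroupCongr hG.commutator_eq_E)
  let e2 : POmega F ⇑(OrthForms.plusForm 4 F) ≃* E (OrthForms.plusForm 4 F) :=
    ((QuotientGroup.quotientMulEquivOfEq hbot).trans QuotientGroup.quotientBot).trans e1
  have e3 : POmega F (quadFormPlus 4 F) ≃* E (OrthForms.plusForm 4 F) := by
    rw [← OrthForms.coe_plusForm]
    exact e2
  have hA := h.toAct.congr e3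
  have hcj : MulAut.congr e3 (MulAut.conj b) = MulAut.conj (e3 b) := by
    ext x : 1
    show e3 (b * e3.symm x * b⁻¹) = e3 b * x * (e3 b)⁻¹
    rw [map_mul, map_mul, map_inv, e3.apply_symm_apply]
  rw [hcj] at hA
  exact false_of hG (by decide) h8 hA

end Cfsg.Agent.H299.RowD4
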