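import Cfsg.Agent.H299.OddRow
import Cfsg.Agent.H299.RowD4
import Cfsg.Agent.S2607

/-!
# `PΩ₈⁺(q)`, `q = 2^f`, `f` odd, with the full triality `S₃`: not of characteristic 2 type

The fixed points of a reflection in `Ω` have no normal 2-subgroup.
-/

set_option autoImplicit false
set_option linter.unusedSectionVars false

namespace Cfsg.Agent.H299.RowD4Odd

open QuadraticMap Module Subgroup Cfsg
open Cfsg.Agent.LieClassical.OrthCore Cfsg.Agent.LieClassical.OrthSimple Cfsg.Agent.LieClassical.OrthTrans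
  Cfsg.Agent.LieClassical Cfsg.Agent.H299.RowD4

section refl

variable {F V : Type*} [Field F] [Finite F] [CharP F 2] [AddCommGroup V] [Module F V] {Q : QuadraticForm F V}

theorem polar_self (v : V) : polar Q v v = 0 := by rw [polar_self', two_zero, zero_mul]

/-- the reflection (orthogonal transvection) in `v` -/
def rfL (Q : QuadraticForm F V) (v : V) : V →ₗ[F] V where
  toFun x := x + ((Q v)⁻¹ * polar Q v x) • v
  map_add' x y := by
    rw [polar_add_right]
    module
  map_smul' a x := by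
    rw [polar_smul_right, smul_eq_mul, RingHom.id_apply]
    module

theorem rfL_apply (v x : V) : rfL Q v x = x + ((Q v)⁻¹ * polar Q v x) • v := rfl

theorem rfL_rfL (v x : V) : rfL Q v (rfL Q v x) = x := by
  rw [rfL_apply, rfL_apply, polar_add_right, polar_smul_right, polar_self, smul_zero, add_zero, add_assoc,
    two_V F, add_zero]

def rf (Q : QuadraticForm F V) (v : V) : V ≃ₗ[F] V := LinearEquiv.ofInvolutive (rfL Q v) (rfL_rfL v)

theorem rf_apply (v x : V) : rf Q v x = x + ((Q v)⁻¹ * polar Q v x) • v := rfl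

theorem rf_sq (v : V) : rf Q v * rf Q v = 1 := by
  ext x
  exact rfL_rfL v x

theorem rf_mem (v : V) : rf Q v ∈ O Q := by
  intro x
  have h2 := two_zero (F := F)
  rw [rf_apply, Q_add, QuadraticMap.map_smul, polar_smul_right, polar_comm Q x v, smul_eq_mul, smul_eq_mul]
  by_cases h : Q v = 0
  · rw [h]
    simp
  · have h3 : (Q v)⁻¹ * Q v = 1 := inv_mul_cancel₀ h
    linear_combination ((Q v)⁻¹ * polar Q v x * polar Q v x) * h3 + ((Q v)⁻¹ * polar Q v x * polar Q v x) * h2

theorem rf_perp {v x : V} (h : polar Q v x = 0) : rf Q v x = x := by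
  rw [rf_apply, h, mul_zero, zero_smul, add_zero]

theorem rf_self (v : V) : rf Q v v = v := rf_perp (polar_self v)

theorem fix_of_comm (hQ : Nondeg Q) {v : V} (hv : Q v ≠ 0) {g : V ≃ₗ[F] V} (hg : g ∈ O Q)
    (h : g * rf Q v = rf Q v * g) : g v = v := by
  obtain ⟨x, hx⟩ : ∃ x, polar Q v x ≠ 0 := by
    by_contra hcon
    push Not at hcon
    have := hQ v hcon
    rw [this, QuadraticMap.map_zero] at hv
    exact hv rfl
  have h1 := LinearEquiv.congr_fun h x
  change g (rf Q v x) = rf Q v (g x) at h1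
  rw [rf_apply, rf_apply, map_add, map_smul] at h1
  have h3 := add_left_cancel h1
  have hc : (Q v)⁻¹ * polar Q v x ≠ 0 := mul_ne_zero (inv_ne_zero hv) hx
  have h4 : g v = (((Q v)⁻¹ * polar Q v x)⁻¹ * ((Q v)⁻¹ * polar Q v (g x))) • v := by
    rw [mul_smul, ← h3, smul_smul, inv_mul_cancel₀ hc, one_smul]
  set c := ((Q v)⁻¹ * polar Q v x)⁻¹ * ((Q v)⁻¹ * polar Q v (g x)) with hcdef
  have h5 : Q (g v) = Q v := mem_O.1 hg v
  rw [h4, QuadraticMap.map_smul, smul_eq_mul] at h5
  have h6 : c * c = 1 := mul_right_cancel₀ hv (by rw [h5, one_mul])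
  have h7 : c = 1 := sq_inj (by rw [pow_two, h6, one_pow])
  rw [h4, h7, one_smul]

theorem comm_of_fix {v : V} {g : V ≃ₗ[F] V} (hg : g ∈ O Q) (h : g v = v) : g * rf Q v = rf Q v * g := by
  ext x
  change g (rf Q v x) = rf Q v (g x)
  rw [rf_apply, rf_apply, map_add, map_smul, h]
  congr 3
  nth_rewrite 2 [← h]
  rw [polar_map hg]

end refl

section perp

variable {F V : Type*} [Field F] [Finite F] [CharP F 2] [AddCommGroup V] [Module F V] {Q : QuadraticForm F V}

theorem exists_one (hQ : Nondeg Q) {v : V} (hv : v ≠ 0) : ∃ y, polar Q v y = 1 := by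
  obtain ⟨x, hx⟩ : ∃ x, polar Q v x ≠ 0 := by
    by_contra hcon
    push Not at hcon
    exact hv (hQ v hcon)
  refine ⟨(polar Q v x)⁻¹ • x, ?_⟩
  rw [polar_smul_right, smul_eq_mul, inv_mul_cancel₀ hx]

/-- a vector perpendicular to `v^⊥` -/
theorem mem_span_of_perp (hQ : Nondeg Q) {v y : V} (hy : polar Q v y = 1) {x : V}
    (h : ∀ w, polar Q v w = 0 → polar Q x w = 0) : x = polar Q x y • v := by
  rw [← sub_eq_zero]
  apply hQ
  intro w
  have h1 := h (w - polar Q v w • y) (by
    rw [polar_sub_right, polar_smul_right, hy]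
    simp)
  rw [polar_sub_right, polar_smul_right, sub_eq_zero] at h1
  rw [polar_sub_left, polar_smul_left, h1]
  simp only [smul_eq_mul]
  ring

theorem exists_w {v x : V} (hQ : Nondeg Q) (hv : Q v ≠ 0) (hx : Q x = 0) (hx0 : x ≠ 0) :
    ∃ w, polar Q v w = 0 ∧ polar Q x w ≠ 0 := by
  by_contra hcon
  push Not at hcon
  have hv0 : v ≠ 0 := by
    rintro rfl
    exact hv (QuadraticMap.map_zero Q)
  obtain ⟨y, hy⟩ := exists_one hQ hv0
  have h1 := mem_span_of_perp hQ hy hcon
  rw [h1, QuadraticMap.map_smul, smul_eq_mul] at hx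
  rcases mul_eq_zero.1 hx with h3 | h3
  · rw [mul_self_eq_zero.1 h3, zero_smul] at h1
    exact hx0 h1
  · exact hv h3

end perp

section count

variable {F V : Type*} [Field F] [Finite F] [CharP F 2] [AddCommGroup V] [Module F V] [FiniteDimensional F V]
  {Q : QuadraticForm F V}

/-- the singular vectors perpendicular to `v` -/
theorem card_Z (hQ : Nondeg Q) {v : V} (hv : Q v ≠ 0) :
    Nat.card {x : V // polar Q v x = 0 ∧ Q x = 0} * (Nat.card F * Nat.card F) = Nat.card V := by
  have hfV : Finite V := Module.finite_of_finite F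
  have hv0 : v ≠ 0 := by
    rintro rfl
    exact hv (QuadraticMap.map_zero Q)
  obtain ⟨y, hy⟩ := exists_one hQ hv0
  set s : F ≃+* F := (frobeniusEquiv F 2).symm with hs
  have hs2 : ∀ x, s x ^ 2 = x := fun x => by
    have := (frobeniusEquiv F 2).apply_symm_apply x
    rw [frobeniusEquiv_apply, frobenius_def] at this
    exact this
  let μ : V → F := fun x => s (Q x * (Q v)⁻¹)
  have hμ : ∀ x, μ x * μ x * Q v = Q x := by
    intro x
    have h1 : μ x * μ x = Q x * (Q v)⁻¹ := by rw [← pow_two]; exact hs2 _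
    rw [h1, mul_assoc, inv_mul_cancel₀ hv, mul_one]
  have h2 := two_zero (F := F)
  -- the bijection
  let f : {x : V // polar Q v x = 0 ∧ Q x = 0} × (F × F) → V := fun p => p.1.1 + p.2.1 • v + p.2.2 • y
  have hf : Function.Bijective f := by
    constructor
    · rintro ⟨⟨x, hx, hx'⟩, a, b⟩ ⟨⟨x₁, hx₁, hx₁'⟩, a₁, b₁⟩ h
      have h3 : x + a • v + b • y = x₁ + a₁ • v + b₁ • y := h
      have h4 : b = b₁ := by
        have h5 := congrArg (polar Q v) h3
        rw [polar_add_right, polar_add_right, polar_add_right, polar_add_right, polar_smul_right, polar_smul_right,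
          polar_smul_right, polar_smul_right, hx, hx₁, polar_self, hy] at h5
        simpa using h5
      subst h4
      have h5 := add_right_cancel h3
      have h6 : a = a₁ := by
        have h7 := congrArg Q h5
        rw [Q_add, Q_add, QuadraticMap.map_smul, QuadraticMap.map_smul, polar_smul_right, polar_smul_right,
          polar_comm Q x v, polar_comm Q x₁ v, hx, hx', hx₁, hx₁'] at h7
        simp only [smul_eq_mul, mul_zero, zero_add, add_zero] at h7
        have h8 := mul_right_cancel₀ hv h7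
        exact sq_inj (by rw [pow_two, pow_two, h8])
      subst h6
      have h7 := add_right_cancel h5
      subst h7
      rfl
    · intro z
      set b := polar Q v z with hb
      set x := z - b • y with hx
      have hx1 : polar Q v x = 0 := by
        rw [hx, polar_sub_right, polar_smul_right, hy, hb]
        simp
      refine ⟨⟨⟨x + μ x • v, ?_, ?_⟩, μ x, b⟩, ?_⟩
      · rw [polar_add_right, polar_smul_right, polar_self, hx1]
        simp
      · rw [Q_add, QuadraticMap.map_smul, polar_smul_right, polar_comm Q x v, hx1, smul_eq_mul, hμ]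
        simp only [smul_zero, add_zero]
        linear_combination (Q x) * h2
      · show x + μ x • v + μ x • v + b • y = z
        rw [add_assoc x, two_V F, add_zero, hx]
        abel
  have h3 := Nat.card_congr (Equiv.ofBijective f hf)
  rw [Nat.card_prod, Nat.card_prod] at h3
  exact h3

theorem two_dvd_card_F : 2 ∣ Nat.card F := by
  have : Fintype F := Fintype.ofFinite F
  have : Fact (Nat.Prime 2) := ⟨Nat.prime_two⟩
  obtain ⟨n, -, hn⟩ := FiniteField.card F 2
  rw [Nat.card_eq_fintype_card, hn]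
  exact dvd_pow_self _ n.ne_zero

theorem even_Z (hQ : Nondeg Q) (hd : 3 ≤ finrank F V) {v : V} (hv : Q v ≠ 0) :
    2 ∣ Nat.card {x : V // polar Q v x = 0 ∧ Q x = 0} := by
  have h1 := card_Z hQ hv
  have h2 : Nat.card V = Nat.card F ^ finrank F V := Module.natCard_eq_pow_finrank
  obtain ⟨k, hk⟩ : ∃ k, finrank F V = k + 3 := ⟨finrank F V - 3, by omega⟩
  rw [h2, hk, pow_add] at h1
  have h3 : 0 < Nat.card F := Nat.card_pos
  have h4 : Nat.card {x : V // polar Q v x = 0 ∧ Q x = 0} = Nat.card F ^ k * Nat.card F := by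
    apply Nat.eq_of_mul_eq_mul_right (Nat.mul_pos h3 h3)
    rw [h1]
    ring
  rw [h4]
  exact (two_dvd_card_F (F := F)).mul_left _

/-- a 2-group fixing `v` fixes a singular vector perpendicular to `v` -/
theorem exists_fixed (hQ : Nondeg Q) (hd : 3 ≤ finrank F V) {v : V} (hv : Q v ≠ 0) {N : Subgroup (V ≃ₗ[F] V)}
    (hN : IsPGroup 2 N) (hNO : N ≤ O Q) (hNv : ∀ n ∈ N, n v = v) :
    ∃ x, x ≠ 0 ∧ Q x = 0 ∧ polar Q v x = 0 ∧ ∀ n ∈ N, n x = x := by
  have : Fact (Nat.Prime 2) := ⟨Nat.prime_two⟩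
  have hfV : Finite V := Module.finite_of_finite F
  let act : MulAction N {x : V // polar Q v x = 0 ∧ Q x = 0} :=
    { smul := fun n x => ⟨n.1 x.1, by
        have h1 := polar_map (hNO n.2) v x.1
        rw [hNv n.1 n.2] at h1
        rw [h1, x.2.1], by rw [mem_O.1 (hNO n.2), x.2.2]⟩
      one_smul := fun x => rfl
      mul_smul := fun g h x => rfl }
  have h0 : (⟨0, by rw [polar_zero_right], QuadraticMap.map_zero Q⟩ : {x : V // polar Q v x = 0 ∧ Q x = 0}) ∈
      MulAction.fixedPoints N {x : V // polar Q v x = 0 ∧ Q x = 0} := by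
    intro n
    apply Subtype.ext
    exact map_zero n.1
  obtain ⟨⟨x, hx1, hx2⟩, hx, hne⟩ := hN.exists_fixed_point_of_prime_dvd_card_of_fixed_point _ (even_Z hQ hd hv) h0
  refine ⟨x, fun h => hne (Subtype.ext h.symm), hx2, hx1, fun n hn => ?_⟩
  exact congrArg Subtype.val (hx ⟨n, hn⟩)

end count

section main

variable {F ι : Type} [Field F] [Fintype F] [CharP F 2] [Fintype ι] [DecidableEq ι] [Nonempty ι]
  {Q : QuadraticForm F (ι → F)}

theorem rf_notMem (hG : Good Q) (h4 : Fintype.card ι ≠ 4) {v : ι → F} (hv : Q v ≠ 0) : rf Q v ∉ E Q := by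
  refine KFacts.OutCyc.Minus.refl_notMem hG h4 (e := v) hv (fun x => ?_)
  rw [rf_apply, sub_eq_add_neg]
  congr 1
  exact eq_neg_of_add_eq_zero_left (two_V F _)

theorem rf_rf_mem (hG : Good Q) (h4 : Fintype.card ι ≠ 4) {v w : ι → F} (hv : Q v ≠ 0) (hw : Q w ≠ 0) :
    rf Q v * rf Q w ∈ E Q :=
  KFacts.OutCyc.Minus.mul_mem_E hG (two_zero) h4 (rf_mem v) (rf_mem w) (rf_notMem hG h4 hv) (rf_notMem hG h4 hw)

/-- **no normal 2-subgroup** in the stabilizer of a nonsingular vector -/
theorem noCore (hG : Good Q) (h4 : Fintype.card ι ≠ 4) {v : ι → F} (hv : Q v ≠ 0)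
    {N : Subgroup ((ι → F) ≃ₗ[F] (ι → F))} (hN : IsPGroup 2 N) (hNE : N ≤ E Q) (hNv : ∀ n ∈ N, n v = v)
    (hn : ∀ k ∈ E Q, k v = v → ∀ n ∈ N, k * n * k⁻¹ ∈ N) : N = ⊥ := by
  have hQ := hG.nondeg
  have hd := hG.dim
  have hNO : N ≤ O Q := fun n hn => E_le_O (hNE hn)
  have hv0 : v ≠ 0 := by
    rintro rfl
    exact hv (QuadraticMap.map_zero Q)
  obtain ⟨x, hx0, hxQ, hxv, hxN⟩ := exists_fixed hQ (by omega) hv hN hNO hNv
  have step1 : ∀ w, polar Q v w = 0 → Q w ≠ 0 → polar Q x w ≠ 0 → ∀ n ∈ N, n w = w := by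
    intro w hw hwQ hwx n hn'
    set k := rf Q v * rf Q w with hk
    have hkE : k ∈ E Q := rf_rf_mem hG h4 hv hwQ
    have hkv : k v = v := by
      rw [hk]
      show rf Q v (rf Q w v) = v
      rw [rf_perp (v := w) (x := v) (by rw [polar_comm]; exact hw), rf_self]
    set c := (Q w)⁻¹ * polar Q w x with hc
    have hc0 : c ≠ 0 := mul_ne_zero (inv_ne_zero hwQ) (by rw [polar_comm]; exact hwx)
    have hkx : k x = x + c • w := by
      rw [hk]
      show rf Q v (rf Q w x) = _
      rw [rf_apply w x, rf_perp]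
      rw [polar_add_right, polar_smul_right, hxv, hw]
      simp
    have hkinv : k⁻¹ v = v := by
      have h1 : (k⁻¹ * k) v = v := by rw [inv_mul_cancel]; rfl
      change k⁻¹ (k v) = v at h1
      rwa [hkv] at h1
    have h1 := hxN _ (hn k⁻¹ (inv_mem hkE) hkinv n hn')
    rw [inv_inv] at h1
    change k⁻¹ (n (k x)) = x at h1
    have h3 : n (k x) = k x := by
      have h5 : k (k⁻¹ (n (k x))) = k x := by rw [h1]
      have h6 : (k * k⁻¹) (n (k x)) = k x := h5
      rwa [mul_inv_cancel] at h6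
    rw [hkx, map_add, hxN n hn', map_smul] at h3
    have h5 := add_left_cancel h3
    exact smul_right_injective _ hc0 h5
  have step2 : ∀ w, polar Q v w = 0 → polar Q x w ≠ 0 → ∀ n ∈ N, n w = w := by
    intro w hw hwx n hn'
    by_cases hwQ : Q w = 0
    · have h1 := step1 (w + v) (by rw [polar_add_right, hw, polar_self, add_zero])
        (by rw [Q_add, hwQ, polar_comm, hw, zero_add, add_zero]; exact hv)
        (by rw [polar_add_right, polar_comm Q x v, hxv, add_zero]; exact hwx) n hn'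
      rw [map_add, hNv n hn'] at h1
      exact add_right_cancel h1
    · exact step1 w hw hwQ hwx n hn'
  obtain ⟨w0, hw0, hw0x⟩ := exists_w hQ hv hxQ hx0
  have step3 : ∀ w, polar Q v w = 0 → ∀ n ∈ N, n w = w := by
    intro w hw n hn'
    by_cases hwx : polar Q x w = 0
    · have h1 := step2 (w + w0) (by rw [polar_add_right, hw, hw0, add_zero])
        (by rw [polar_add_right, hwx, zero_add]; exact hw0x) n hn'
      rw [map_add, step2 w0 hw0 hw0x n hn'] at h1
      exact add_right_cancel h1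
    · exact step2 w hw hwx n hn'
  obtain ⟨y, hy⟩ := exists_one hQ hv0
  rw [eq_bot_iff]
  intro n hn'
  rw [mem_bot]
  -- the image of `y`
  have h1 : n y = y + (polar Q (n y - y) y) • v := by
    have h3 : n y - y = (polar Q (n y - y) y) • v := by
      apply mem_span_of_perp hQ hy
      intro w hw
      have h5 := polar_map (hNO hn') y w
      rw [step3 w hw n hn'] at h5
      rw [polar_sub_left, h5, sub_self]
    rw [← h3]
    abel
  set a := polar Q (n y - y) y with ha
  have hdec : ∀ z, z = (z - polar Q v z • y) + polar Q v z • y := fun z => by abel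
  have hdec' : ∀ z, polar Q v (z - polar Q v z • y) = 0 := fun z => by
    rw [polar_sub_right, polar_smul_right, hy]
    simp
  have h2 : a * (1 + a * Q v) = 0 := by
    have h3 := mem_O.1 (hNO hn') y
    rw [h1, Q_add, QuadraticMap.map_smul, polar_smul_right, polar_comm Q y v, hy, smul_eq_mul, smul_eq_mul] at h3
    linear_combination h3
  rcases mul_eq_zero.1 h2 with h3 | h3
  · rw [h3, zero_smul, add_zero] at h1
    ext z : 1
    rw [hdec z, map_add, step3 _ (hdec' z) n hn', map_smul, h1]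
    rfl
  · exfalso
    have h5 : a = (Q v)⁻¹ := by
      have h6 : a * Q v = 1 := by
        linear_combination h3 - two_zero (F := F)
      exact eq_inv_of_mul_eq_one_left h6
    apply rf_notMem hG h4 hv
    have h6 : rf Q v = n := by
      ext z : 1
      rw [hdec z, map_add, map_add, step3 _ (hdec' z) n hn', rf_perp (hdec' z), map_smul, map_smul, h1, rf_apply, hy,
        mul_one, h5]
    rw [h6]
    exact hNE hn'

/-- a nontrivial element of `Ω` fixing `v` -/
theorem exists_fix (hG : Good Q) (h4 : Fintype.card ι ≠ 4) {v : ι → F} (hv : Q v ≠ 0) :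
    ∃ k ∈ E Q, k ≠ 1 ∧ k v = v := by
  have hQ := hG.nondeg
  have hd := hG.dim
  obtain ⟨x, hx0, hxQ, hxv, -⟩ := exists_fixed hQ (by omega) hv (N := ⊥) (IsPGroup.of_bot) bot_le (by
    intro n hn
    rw [mem_bot] at hn
    rw [hn]
    rfl)
  obtain ⟨w, hw, hwx, hwQ⟩ : ∃ w, polar Q v w = 0 ∧ polar Q x w ≠ 0 ∧ Q w ≠ 0 := by
    obtain ⟨w, hw, hwx⟩ := exists_w hQ hv hxQ hx0
    by_cases hwQ : Q w = 0
    · exact ⟨w + v, by rw [polar_add_right, hw, polar_self, add_zero],
        by rw [polar_add_right, polar_comm Q x v, hxv, add_zero]; exact hwx,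
        by rw [Q_add, hwQ, polar_comm, hw, zero_add, add_zero]; exact hv⟩
    · exact ⟨w, hw, hwx, hwQ⟩
  refine ⟨rf Q v * rf Q w, rf_rf_mem hG h4 hv hwQ, ?_, ?_⟩
  · intro h
    have h1 := LinearEquiv.congr_fun h x
    change rf Q v (rf Q w x) = x at h1
    rw [rf_apply w x, rf_perp (by
      rw [polar_add_right, polar_smul_right, hxv, hw]
      simp)] at h1
    have h2 := left_eq_add.1 h1.symm
    rcases smul_eq_zero.1 h2 with h3 | h3
    · rcases mul_eq_zero.1 h3 with h5 | h5
      · exact inv_ne_zero hwQ h5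
      · exact hwx (by rw [polar_comm]; exact h5)
    · rw [h3, QuadraticMap.map_zero] at hwQ
      exact hwQ rfl
  · show rf Q v (rf Q w v) = v
    rw [rf_perp (v := w) (x := v) (by rw [polar_comm]; exact hw), rf_self]

end main

section final

open Cfsg.Agent.ClassicalGeometry.OrthSemi Cfsg.Agent.ClassicalGeometry.OrthSemiCount
  Cfsg.Agent.ClassicalGeometry.OrthSemiForms Cfsg.Agent.LieClassical.OrthForms
  Cfsg.Agent.H989.OutOrth.Abstract Cfsg.Agent.H989.OutOrth.Basic Cfsg.Agent.H989.OutOrth.Forms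

variable {F ι : Type} [Field F] [Fintype F] [CharP F 2] [Fintype ι] [DecidableEq ι] [Nonempty ι]
  {Q : QuadraticForm F (ι → F)}

/-- the automorphism of `E Q` induced by a reflection -/
def gam (v : ι → F) : MulAut ↥(E Q) := conjE Q (KFacts.OutCyc.Minus.iso ⟨rf Q v, rf_mem v⟩)

theorem gam_apply (v : ι → F) (n : ↥(E Q)) (x : ι → F) :
    ((gam v n : ↥(E Q)) : (ι → F) ≃ₗ[F] (ι → F)) (rf Q v x) = rf Q v ((n : (ι → F) ≃ₗ[F] (ι → F)) x) :=
  conjLin_apply' (KFacts.OutCyc.Minus.iso ⟨rf Q v, rf_mem v⟩) n.1 x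

theorem gam_fix {v : ι → F} {n : ↥(E Q)} :
    gam v n = n ↔ (n : (ι → F) ≃ₗ[F] (ι → F)) * rf Q v = rf Q v * n := by
  constructor
  · intro h
    ext x : 1
    have h1 := gam_apply v n x
    rw [h] at h1
    exact h1
  · intro h
    apply Subtype.ext
    have h1 : ∀ x, ((gam v n : ↥(E Q)) : (ι → F) ≃ₗ[F] (ι → F)) (rf Q v x) =
        (n : (ι → F) ≃ₗ[F] (ι → F)) (rf Q v x) := fun x => by
      rw [gam_apply]
      exact (LinearEquiv.congr_fun h x).symm
    ext y : 1
    obtain ⟨x, rfl⟩ := (rf Q v).surjective y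
    exact h1 x

theorem gam_sq (v : ι → F) : (gam v : MulAut ↥(E Q)) * gam v = 1 := by
  have h1 : (KFacts.OutCyc.Minus.iso ⟨rf Q v, rf_mem v⟩ : Gam Q) * KFacts.OutCyc.Minus.iso ⟨rf Q v, rf_mem v⟩ = 1 := by
    rw [← KFacts.OutCyc.Minus.iso_mul]
    have h2 : (⟨rf Q v, rf_mem v⟩ : O Q) * ⟨rf Q v, rf_mem v⟩ = 1 := Subtype.ext (rf_sq v)
    rw [h2]
    rfl
  rw [gam, ← map_mul, h1, map_one]

theorem gam_not_inner (hG : Good Q) (h4 : Fintype.card ι ≠ 4) {v : ι → F} (hv : Q v ≠ 0) :
    (gam v : MulAut ↥(E Q)) ∉ Inn ↥(E Q) := by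
  rintro ⟨k, hk⟩
  refine rf_notMem hG h4 hv (KFacts.OutCyc.Minus.mem_E_of_inner hG (g := ⟨rf Q v, rf_mem v⟩)
    (x := QuotientGroup.mk k) ?_)
  ext x
  induction x using QuotientGroup.induction_on with
  | H h =>
    rw [Psi_mk, MulAut.conj_apply, ← QuotientGroup.mk_inv, ← QuotientGroup.mk_mul, ← QuotientGroup.mk_mul]
    congr 1
    have h1 := DFunLike.congr_fun hk h
    rw [MulAut.conj_apply] at h1
    exact h1.symm

end final

/-- **`PΩ₈⁺(2^f)`, `f` odd, with triality and no normal subgroup of index 3: not of characteristic 2 type** -/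
theorem d4_odd {G : Type*} [Group G] [Finite G] (hG : IsCharacteristicTwoType G) {S : Subgroup G} [S.Normal]
    (hc : Subgroup.centralizer (S : Set G) = ⊥) {F : Type} [Field F] [Fintype F] {f : ℕ}
    (hF : Fintype.card F = 2 ^ f) (hf : Odd f) (h3 : 3 ∣ S.index)
    (hn : ∀ N : Subgroup G, N.Normal → N.index = 3 → False) (e : ↥S ≃* POmega F (quadFormPlus 4 F)) : False := by
  have hch : CharP F 2 := by
    have : Fact (Nat.Prime 2) := ⟨Nat.prime_two⟩
    exact charP_of_card_eq_prime_pow (f := f) hF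
  have hf1 : 1 ≤ f := hf.pos
  have hfz : NeZero f := ⟨by omega⟩
  have hfC : Nat.card (Multiplicative (ZMod f)) = f := by
    rw [Nat.card_congr Multiplicative.toAdd, Nat.card_zmod]
  have hfin : Finite (Multiplicative (ZMod f)) := Finite.of_equiv (ZMod f) Multiplicative.ofAdd
  have hQ := OrthForms.nondeg_plusForm 4 F
  have hd : 5 ≤ Fintype.card (Fin 4 ⊕ Fin 4) := by decide
  have hgood : Good (OrthForms.plusForm 4 F) :=
    OrthFinite.good_of_finite hQ (by rwa [Module.finrank_fintype_fun_eq_card])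
  have h4 : Fintype.card (Fin 4 ⊕ Fin 4) ≠ 4 := by decide
  have P := Sigma.Orth.pairs_plus (F := F) (le_refl 4)
  have hbot : Subgroup.center (Cfsg.Omega F (⇑(OrthForms.plusForm 4 F))) = ⊥ :=
    OrthCenter.center_omega_eq_bot_char_two (CharTwo.two_eq_zero) (OmegaReindex.nondegenerate_of_left _ hQ)
      (by decide) ⟨_, (P.hyp 0).left_ne, (P.hyp 0).left⟩
  let e1 : Cfsg.Omega F ⇑(OrthForms.plusForm 4 F) ≃* E (OrthForms.plusForm 4 F) :=
    (OrthFinite.omegaEquiv _).trans (MulEquiv.subgroupCongr hgood.commutator_eq_E)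
  let e2 : POmega F ⇑(OrthForms.plusForm 4 F) ≃* E (OrthForms.plusForm 4 F) :=
    ((QuotientGroup.quotientMulEquivOfEq hbot).trans QuotientGroup.quotientBot).trans e1
  have e3 : POmega F (quadFormPlus 4 F) ≃* E (OrthForms.plusForm 4 F) := by
    rw [← OrthForms.coe_plusForm]
    exact e2
  have h2607 := S2607.result (F := F) (f := f) (m := 4) hf1 hF le_rfl
  rw [if_pos rfl] at h2607
  obtain ⟨eO⟩ := h2607
  let eX : Out ↥(E (OrthForms.plusForm 4 F)) ≃* Equiv.Perm (Fin 3) × Multiplicative (ZMod f) :=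
    (H989.OutOrth.Forms.outCongr e3.symm).trans eO
  let ψ : MulAut ↥(E (OrthForms.plusForm 4 F)) →* Equiv.Perm (Fin 3) × Multiplicative (ZMod f) :=
    eX.toMonoidHom.comp (QuotientGroup.mk' (Inn ↥(E (OrthForms.plusForm 4 F))))
  have hψs : Function.Surjective ψ := eX.surjective.comp (QuotientGroup.mk'_surjective _)
  have hψ : ψ.ker = Inn ↥(E (OrthForms.plusForm 4 F)) := by
    ext a
    rw [MonoidHom.mem_ker]
    constructor
    · intro h
      have h1 : (QuotientGroup.mk' (Inn ↥(E (OrthForms.plusForm 4 F)))) a = 1 := by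
        apply eX.injective
        rw [map_one]
        exact h
      exact (QuotientGroup.eq_one_iff a).1 h1
    · intro h
      have h1 : (QuotientGroup.mk' (Inn ↥(E (OrthForms.plusForm 4 F)))) a = 1 := (QuotientGroup.eq_one_iff a).2 h
      show eX _ = 1
      rw [h1, map_one]
  obtain ⟨x, y, hxy⟩ := hgood.exists_hyp
  have hv : OrthForms.plusForm 4 F (x + y) ≠ 0 := by
    rw [Q_add, hxy.left, hxy.right, hxy.pair]
    simp
  refine OddRow.core hG hc h3 hn (e.trans e3) ψ hψs hψ OddRow.hodd (OddRow.hconj (by rwa [hfC])) (gam (x + y))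
    (gam_sq _) (gam_not_inner hgood h4 hv) ?_ ?_
  · obtain ⟨k, hk, hk1, hkv⟩ := exists_fix hgood h4 hv
    exact ⟨⟨k, hk⟩, fun h => hk1 (congrArg Subtype.val h), gam_fix.2 (comm_of_fix (E_le_O hk) hkv)⟩
  · intro N hN hNp hNn
    have h1 : N.map (E (OrthForms.plusForm 4 F)).subtype = ⊥ := by
      refine noCore hgood h4 hv (hNp.map _) ?_ ?_ ?_
      · rintro _ ⟨n, -, rfl⟩
        exact n.2
      · rintro _ ⟨n, hn', rfl⟩
        exact fix_of_comm hgood.nondeg hv (E_le_O n.2) (gam_fix.1 (hN n hn'))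
      · rintro k hk hkv _ ⟨n, hn', rfl⟩
        exact ⟨_, hNn ⟨k, hk⟩ (gam_fix.2 (comm_of_fix (E_le_O hk) hkv)) n hn', rfl⟩
    exact (Subgroup.map_eq_bot_iff_of_injective _ (E (OrthForms.plusForm 4 F)).subtype_injective).1 h1

end Cfsg.Agent.H299.RowD4Odd
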