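import Cfsg.Agent.H299.Centre
import Cfsg.Agent.H299.AbQ
import Cfsg.Agent.H299.CenAux
import Cfsg.Agent.H183.OutPSL

/-!
# `PSL_n(q)`
-/

set_option autoImplicit false
set_option linter.unusedSectionVars false

namespace Cfsg.Agent.H299.RowPSL

open Subgroup Cfsg Matrix
open Cfsg.Agent.ClassicalGeometry.AutPSL.Root
open Cfsg.Agent.ClassicalGeometry.AutPSL.Auto
open Cfsg.Agent.ClassicalGeometry.AutPSL.Main
open Cfsg.Agent.H183.OutPSL
open Cfsg.Agent.H183.OutAbs
open Cfsg.Agent.H299.CenAux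

/-- automorphisms modulo `PGL` -/
theorem abK {F : Type} [Field F] [Fintype F] (p : ℕ) [Fact p.Prime] [CharP F p] {n : ℕ} (hn : 3 ≤ n) :
    AbQ.AbK (ProjectiveSpecialLinearGroup (Fin n) F) (NN (Fin n) F) := by
  have : Nontrivial (Fin n) := Fin.nontrivial_iff_two_le.2 (by omega)
  have hN : (NN (Fin n) F).Normal := normal_of fun α => surj_three p hn α
  let s : (F ≃+* F) × Multiplicative (ZMod 2) →* MulAut (SpecialLinearGroup (Fin n) F) :=
    MonoidHom.noncommCoprod fld gr (fun σ x => by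
      have key : ∀ x : Multiplicative (ZMod 2), x = 1 ∨ x = Multiplicative.ofAdd 1 := by decide
      rcases key x with rfl | rfl
      · rw [map_one]; exact Commute.one_right _
      · rw [gr_one]; exact fld_mul_itr σ)
  have hs1 : ∀ σ, s (σ, 1) = fld σ := fun σ => by
    change fld σ * gr 1 = _
    rw [map_one, mul_one]
  have hs2 : ∀ σ, s (σ, Multiplicative.ofAdd 1) = fld σ * itr := fun σ => by
    change fld σ * gr _ = _
    rw [gr_one]
  obtain ⟨e, h1, h2, -⟩ := exists_split_hom (NN (Fin n) F) (lift.comp s)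
    (fun α => by
      rcases surj_three p hn α with ⟨A, σ, rfl⟩ | ⟨A, σ, rfl⟩
      · exact ⟨(σ, 1), lift (cj A), ⟨A, rfl⟩, by rw [map_mul, MonoidHom.comp_apply, hs1]⟩
      · exact ⟨(σ, Multiplicative.ofAdd 1), lift (cj A), ⟨A, rfl⟩, by
          rw [mul_assoc, map_mul, MonoidHom.comp_apply, hs2]⟩)
    (fun x hx => by
      obtain ⟨σ, x⟩ := x
      obtain ⟨A, hA⟩ := hx
      have key : ∀ x : Multiplicative (ZMod 2), x = 1 ∨ x = Multiplicative.ofAdd 1 := by decide
      rcases key x with rfl | rfl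
      · rw [MonoidHom.comp_apply, MonoidHom.comp_apply, hs1] at hA
        have h3 : lift (cj A * fld (1 : F ≃+* F)) = lift (fld σ) := by
          rw [map_one fld, mul_one]; exact hA
        have := (injective_aux h3).2
        rw [← this]
        rfl
      · exfalso
        rw [MonoidHom.comp_apply, MonoidHom.comp_apply, hs2] at hA
        apply not_graph (ι := Fin n) (F := F) (by rw [Fintype.card_fin]; exact hn) (C := A⁻¹) (σ := σ) (τ := 1)
        rw [mul_assoc, map_mul, ← hA, ← map_mul, ← map_mul, inv_mul_cancel, map_one, map_one, map_one, map_one])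
  refine ⟨(F ≃+* F) × Multiplicative (ZMod 2), inferInstance, e, ?_, h2.le⟩
  have hc : IsCyclic (F ≃+* F) := Cfsg.Agent.LieRecognition.FieldSemilinear.isCyclic_ringAut F
  rintro ⟨x, a⟩ ⟨y, b⟩
  refine Prod.ext ?_ (mul_comm a b)
  exact hc.commGroup.mul_comm x y

/-- the coercion to matrices -/
def vSL (n : ℕ) (F : Type*) [Field F] : SpecialLinearGroup (Fin n) F →* Matrix (Fin n) (Fin n) F where
  toFun g := (g : Matrix (Fin n) (Fin n) F)
  map_one' := rfl
  map_mul' _ _ := rfl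

theorem vSL_apply {n : ℕ} {F : Type*} [Field F] (g : SpecialLinearGroup (Fin n) F) :
    vSL n F g = (g : Matrix (Fin n) (Fin n) F) := rfl

/-- the projective setting -/
theorem proj {F : Type*} [Field F] [Finite F] [CharP F 2] {n : ℕ} (A : GL (Fin n) F) :
    Proj (pr : SpecialLinearGroup (Fin n) F →* ProjectiveSpecialLinearGroup (Fin n) F) (vSL n F)
      (lift (cj A)) (A : Matrix (Fin n) (Fin n) F) ((A⁻¹ : GL (Fin n) F) : Matrix (Fin n) (Fin n) F) := by
  refine ⟨pr_surjective, Subtype.val_injective, ?_, ?_, ?_, ?_, ?_⟩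
  · intro g
    constructor
    · intro h
      obtain ⟨c, hc⟩ := exists_smul_of_pr_eq (x := 1) (y := g) (by rw [map_one, h])
      exact ⟨c, hc⟩
    · rintro ⟨c, hc⟩
      rw [← map_one (pr : SpecialLinearGroup (Fin n) F →* ProjectiveSpecialLinearGroup (Fin n) F)]
      exact (pr_eq_of_smul (x := 1) (y := g) (c := c) hc).symm
  · rw [← Units.val_mul, mul_inv_cancel, Units.val_one]
  · rw [← Units.val_mul, inv_mul_cancel, Units.val_one]
  · intro g
    exact ⟨cj A g, coe_cj A g, (lift_pr (cj A) g).symm⟩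
  · intro g c hc
    obtain ⟨d, hd⟩ := exists_sqrt c
    refine ⟨⟨d • 1, ?_⟩, d, rfl, hd⟩
    have h1 : (c • (1 : Matrix (Fin n) (Fin n) F)).det = 1 := by rw [← hc]; exact g.2
    rw [Matrix.det_smul, Matrix.det_one, mul_one, ← hd, mul_pow] at h1
    rw [Matrix.det_smul, Matrix.det_one, mul_one]
    exact eq_one_of_sq h1

/-- **`PSL_n(q)`: `q = 2`** -/
theorem card_two {F : Type} [Field F] [Fintype F] [CharP F 2] {n : ℕ} {φ : MulAut (ProjectiveSpecialLinearGroup (Fin n) F)}
    {L : Subgroup (ProjectiveSpecialLinearGroup (Fin n) F)} (h : Act _ φ L) (hφ : φ ∈ NN (Fin n) F) :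
    Fintype.card F = 2 := by
  obtain ⟨A, rfl⟩ := hφ
  refine card_eq_two fun c => (proj A).scalars h fun g hg => ?_
  have hg' : (g : Matrix (Fin n) (Fin n) F) * g = 1 := congrArg Subtype.val hg
  exact ⟨⟨_, det_eq_one (sq_one hg' c)⟩, rfl⟩

/-- over the field with two elements all these automorphisms are inner -/
theorem inner_of_two {F : Type} [Field F] [Fintype F] (hF : Fintype.card F = 2) {n : ℕ}
    {φ : MulAut (ProjectiveSpecialLinearGroup (Fin n) F)} (hφ : φ ∈ NN (Fin n) F) :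
    ∃ x : ProjectiveSpecialLinearGroup (Fin n) F, φ = MulAut.conj x := by
  obtain ⟨A, rfl⟩ := hφ
  have h01 : ∀ c : F, c ≠ 0 → c = 1 := by
    intro c hc
    have := FiniteField.pow_card_sub_one_eq_one c hc
    rw [hF, pow_one] at this
    exact this
  have hdet : ((A : Matrix (Fin n) (Fin n) F)).det = 1 := by
    refine h01 _ ?_
    have h1 : IsUnit ((A : Matrix (Fin n) (Fin n) F)).det := (Matrix.isUnit_iff_isUnit_det _).1 A.isUnit
    exact h1.ne_zero
  set g : SpecialLinearGroup (Fin n) F := ⟨A, hdet⟩ with hg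
  refine ⟨pr g, ?_⟩
  ext x
  obtain ⟨x, rfl⟩ := pr_surjective x
  show lift (cj A) (pr x) = pr g * pr x * (pr g)⁻¹
  rw [lift_pr, ← map_mul, ← map_inv, ← map_mul]
  congr 1
  have hsub : ∀ y : SpecialLinearGroup (Fin n) F, (y : Matrix (Fin n) (Fin n) F) = y.1 := fun y => rfl
  apply Subtype.ext
  have h1 : ((cj A x : SpecialLinearGroup (Fin n) F) : Matrix (Fin n) (Fin n) F) =
      (A : Matrix (Fin n) (Fin n) F) * (x : Matrix (Fin n) (Fin n) F) * ((A⁻¹ : GL (Fin n) F) : Matrix (Fin n) (Fin n) F) := coe_cj A x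
  have h2 : ((g⁻¹ : SpecialLinearGroup (Fin n) F) : Matrix (Fin n) (Fin n) F) =
      ((A⁻¹ : GL (Fin n) F) : Matrix (Fin n) (Fin n) F) := by
    have h3 : ((g⁻¹ : SpecialLinearGroup (Fin n) F) : Matrix (Fin n) (Fin n) F) * (A : Matrix (Fin n) (Fin n) F) = 1 :=
      congrArg Subtype.val (inv_mul_cancel g)
    have h4 : (A : Matrix (Fin n) (Fin n) F) * ((A⁻¹ : GL (Fin n) F) : Matrix (Fin n) (Fin n) F) = 1 := by
      rw [← Units.val_mul, mul_inv_cancel, Units.val_one]
    calc ((g⁻¹ : SpecialLinearGroup (Fin n) F) : Matrix (Fin n) (Fin n) F)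
        = (g⁻¹ : SpecialLinearGroup (Fin n) F) * ((A : Matrix (Fin n) (Fin n) F) * ((A⁻¹ : GL (Fin n) F) : Matrix (Fin n) (Fin n) F)) := by
          rw [h4, mul_one]
      _ = _ := by rw [← mul_assoc, h3, one_mul]
  have h5 : ((g * x * g⁻¹ : SpecialLinearGroup (Fin n) F) : Matrix (Fin n) (Fin n) F) =
      (A : Matrix (Fin n) (Fin n) F) * (x : Matrix (Fin n) (Fin n) F) * ((A⁻¹ : GL (Fin n) F) : Matrix (Fin n) (Fin n) F) := by
    have h6 : ((g * x * g⁻¹ : SpecialLinearGroup (Fin n) F) : Matrix (Fin n) (Fin n) F) =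
      ((g : SpecialLinearGroup (Fin n) F) : Matrix (Fin n) (Fin n) F) * (x : Matrix (Fin n) (Fin n) F) *
        ((g⁻¹ : SpecialLinearGroup (Fin n) F) : Matrix (Fin n) (Fin n) F) := rfl
    exact h6.trans (congrArg (fun M => (A : Matrix (Fin n) (Fin n) F) * (x : Matrix (Fin n) (Fin n) F) * M) h2)
  exact h1.trans h5.symm

end Cfsg.Agent.H299.RowPSL
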