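import Cfsg.Agent.H299.Centre
import Cfsg.Agent.H299.AbQ
import Cfsg.Agent.H299.CenAux
import Cfsg.Agent.H198.SympGamma
import Cfsg.Agent.H183.OutAbs
import Cfsg.Agent.Sigma.Symp
import Cfsg.Agent.S0814
import Cfsg.Agent.S0270
import Cfsg.Agent.LieClassical.FieldTransfer

/-!
# `PSp_{2m}(q)`, `m ≥ 3`
-/

set_option autoImplicit false
set_option linter.unusedSectionVars false

namespace Cfsg.Agent.H299.RowPSp

open Cfsg Matrix Subgroup
open Cfsg.Agent.ClassicalGeometry.SympBasic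
open Cfsg.Agent.LieClassical.FieldTransfer
open Cfsg.Agent.H183.OutAbs Cfsg.Agent.H299.CenAux

variable {F : Type*} [Field F] {m : ℕ}

local notation "GG" => Matrix.symplecticGroup (Fin m) F

/-- the projection -/
def pr (m : ℕ) (F : Type*) [Field F] : Matrix.symplecticGroup (Fin m) F →* PSp m F := QuotientGroup.mk' _

theorem pr_surjective : Function.Surjective (pr m F) := QuotientGroup.mk'_surjective _

/-- the matrices -/
def vSp (m : ℕ) (F : Type*) [Field F] :
    Matrix.symplecticGroup (Fin m) F →* Matrix (Fin m ⊕ Fin m) (Fin m ⊕ Fin m) F where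
  toFun g := (g : Matrix (Fin m ⊕ Fin m) (Fin m ⊕ Fin m) F)
  map_one' := rfl
  map_mul' _ _ := rfl

/-- field automorphisms -/
def sP (m : ℕ) (F : Type*) [Field F] : (F ≃+* F) →* MulAut (PSp m F) where
  toFun σ := pspCongr m σ
  map_one' := by
    apply MulEquiv.ext
    intro x
    obtain ⟨g, rfl⟩ := pr_surjective x
    show pr m F (spCongr (Fin m) 1 g) = pr m F g
    congr 1
  map_mul' σ τ := by
    apply MulEquiv.ext
    intro x
    obtain ⟨g, rfl⟩ := pr_surjective x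
    show pr m F (spCongr (Fin m) (σ * τ) g) = pr m F (spCongr (Fin m) σ (spCongr (Fin m) τ g))
    congr 1

theorem sP_pr (σ : F ≃+* F) (g : GG) : sP m F σ (pr m F g) = pr m F (spCongr (Fin m) σ g) := rfl

theorem exists_conj [Finite F] [CharP F 2] (hm : 3 ≤ m) (α : MulAut (PSp m F)) :
    ∃ (x : PSp m F) (σ : F ≃+* F), α = MulAut.conj x * sP m F σ := by
  obtain ⟨A, σ, hA, hα⟩ := H198.SympGamma.exists_pair (by omega) (Or.inl hm) α
  obtain ⟨c, hc⟩ := hA
  obtain ⟨d, hd⟩ := exists_sqrt (c : F)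
  have hd0 : d ≠ 0 := by
    rintro rfl
    rw [mul_zero] at hd
    exact c.ne_zero hd.symm
  have hmem : d⁻¹ • (A : Matrix (Fin m ⊕ Fin m) (Fin m ⊕ Fin m) F) ∈ Matrix.symplecticGroup (Fin m) F := by
    rw [mem_symplecticGroup_iff]
    intro u v
    rw [Matrix.smul_mulVec, Matrix.smul_mulVec, sympForm_smul_left, sympForm_smul_right]
    have h1 : sympForm m F ((A : Matrix (Fin m ⊕ Fin m) (Fin m ⊕ Fin m) F) *ᵥ u)
      ((A : Matrix (Fin m ⊕ Fin m) (Fin m ⊕ Fin m) F) *ᵥ v) = (c : F) * sympForm m F u v := hc u v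
    rw [h1, ← hd]
    field_simp
  set a : GG := ⟨_, hmem⟩ with ha
  refine ⟨pr m F a, σ, ?_⟩
  apply MulEquiv.ext
  intro x
  obtain ⟨g, rfl⟩ := pr_surjective x
  rw [MulAut.mul_apply, sP_pr, MulAut.conj_apply, ← map_inv, ← map_mul, ← map_mul]
  refine hα g _ ?_
  have hai : ((a⁻¹ : GG) : Matrix (Fin m ⊕ Fin m) (Fin m ⊕ Fin m) F) =
      d • ((A⁻¹ : GL (Fin m ⊕ Fin m) F) : Matrix (Fin m ⊕ Fin m) (Fin m ⊕ Fin m) F) := by
    have h1 : ((a⁻¹ : GG) : Matrix (Fin m ⊕ Fin m) (Fin m ⊕ Fin m) F) *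
        (a : Matrix (Fin m ⊕ Fin m) (Fin m ⊕ Fin m) F) = 1 := by
      rw [← Submonoid.coe_mul, inv_mul_cancel]; rfl
    have h2 : (a : Matrix (Fin m ⊕ Fin m) (Fin m ⊕ Fin m) F) *
        (d • ((A⁻¹ : GL (Fin m ⊕ Fin m) F) : Matrix (Fin m ⊕ Fin m) (Fin m ⊕ Fin m) F)) = 1 := by
      rw [ha]
      show (d⁻¹ • (A : Matrix (Fin m ⊕ Fin m) (Fin m ⊕ Fin m) F)) * _ = 1
      rw [smul_mul_smul_comm, inv_mul_cancel₀ hd0, one_smul, ← Units.val_mul, mul_inv_cancel, Units.val_one]
    calc ((a⁻¹ : GG) : Matrix (Fin m ⊕ Fin m) (Fin m ⊕ Fin m) F) =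
        ((a⁻¹ : GG) : Matrix (Fin m ⊕ Fin m) (Fin m ⊕ Fin m) F) * ((a : Matrix (Fin m ⊕ Fin m) (Fin m ⊕ Fin m) F) *
        (d • ((A⁻¹ : GL (Fin m ⊕ Fin m) F) : Matrix (Fin m ⊕ Fin m) (Fin m ⊕ Fin m) F))) := by rw [h2, mul_one]
      _ = _ := by rw [← mul_assoc, h1, one_mul]
  rw [Submonoid.coe_mul, Submonoid.coe_mul, hai]
  show (d⁻¹ • (A : Matrix (Fin m ⊕ Fin m) (Fin m ⊕ Fin m) F)) * ((g : Matrix _ _ F).map σ) * (d • _) = _
  rw [smul_mul_assoc, smul_mul_smul_comm, inv_mul_cancel₀ hd0, one_smul]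

/-- automorphisms modulo inner automorphisms -/
theorem abK {F : Type} [Field F] [Fintype F] [CharP F 2] {m : ℕ} (hm : 3 ≤ m) :
    AbQ.AbK (PSp m F) (MulAut.conj : PSp m F →* MulAut (PSp m F)).range := by
  have h2 : Fact (Nat.Prime 2) := ⟨Nat.prime_two⟩
  have hfin : Finite (Matrix.symplecticGroup (Fin m) F) :=
    Finite.of_injective (fun g => (g : Matrix (Fin m ⊕ Fin m) (Fin m ⊕ Fin m) F)) Subtype.val_injective
  have hfP : Finite (PSp m F) := Finite.of_surjective _ pr_surjective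
  obtain ⟨f, -, hf⟩ := FiniteField.card F 2
  have hf1 : 1 ≤ (f : ℕ) := f.pos
  have h1 := S0814.result (F := F) 2 f hf1 hf m (by omega) (by omega)
  have hg : Nat.gcd 2 (2 ^ (f : ℕ) - 1) = 1 := by
    have h3 : Odd (2 ^ (f : ℕ) - 1) := by
      obtain ⟨k, hk⟩ : 2 ∣ 2 ^ (f : ℕ) := dvd_pow_self 2 (by omega)
      have : 0 < 2 ^ (f : ℕ) := by positivity
      exact ⟨k - 1, by omega⟩
    exact Nat.coprime_two_left.2 h3
  rw [if_neg (by omega), one_mul, hg, one_mul] at h1
  have hs : IsSimpleGroup (PSp m F) := S0270.result m (by omega) (by omega)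
  have hZ : Subgroup.center (PSp m F) = ⊥ := by
    have hb : Subgroup.center (Matrix.symplecticGroup (Fin m) F) = ⊥ := Sigma.Symp.center_eq_bot (by omega)
    have hbij : Function.Bijective (pr m F) := by
      refine ⟨?_, pr_surjective⟩
      rw [injective_iff_map_eq_one]
      intro g hg
      have h3 : g ∈ Subgroup.center (Matrix.symplecticGroup (Fin m) F) := (QuotientGroup.eq_one_iff g).1 hg
      rwa [hb, mem_bot] at h3
    rw [eq_bot_iff]
    intro x hx
    obtain ⟨g, rfl⟩ := pr_surjective x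
    have : g ∈ Subgroup.center (Matrix.symplecticGroup (Fin m) F) := by
      rw [mem_center_iff]
      intro k
      apply hbij.1
      rw [map_mul, map_mul]
      exact mem_center_iff.1 hx _
    rw [hb, mem_bot] at this
    rw [this, map_one]
    exact one_mem _
  set N := (MulAut.conj : PSp m F →* MulAut (PSp m F)).range with hNd
  have hinj : Function.Injective (MulAut.conj : PSp m F →* MulAut (PSp m F)) := by
    rw [injective_iff_map_eq_one]
    intro a ha
    have : a ∈ Subgroup.center (PSp m F) := by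
      rw [mem_center_iff]
      intro b
      have h2 := congrArg (fun f : MulAut (PSp m F) => f b) ha
      simp only [MulAut.conj_apply, MulAut.one_apply] at h2
      exact (mul_inv_eq_iff_eq_mul.1 h2).symm
    rwa [hZ, mem_bot] at this
  have hNc : Nat.card N = Nat.card (PSp m F) := (Nat.card_congr (MonoidHom.ofInjective hinj).toEquiv).symm
  have hN : N.Normal := by
    refine ⟨?_⟩
    rintro _ ⟨x, rfl⟩ α
    refine ⟨α x, ?_⟩
    ext y
    simp [MulAut.conj_apply]
  have hfA : Finite (MulAut (PSp m F)) := Finite.of_injective (fun f : MulAut (PSp m F) => (f : PSp m F → PSp m F))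
    fun f g h => MulEquiv.ext fun x => congrFun h x
  have hcF : Nat.card (F ≃+* F) = f := Cfsg.Agent.Lib.FieldAutCard.card_ringAut hf1 hf
  have hfG : Finite (F ≃+* F) := Nat.finite_of_card_ne_zero (by rw [hcF]; omega)
  have hsur : Function.Surjective (fun p : N × (F ≃+* F) => (p.1 : MulAut (PSp m F)) * sP m F p.2) := by
    intro α
    obtain ⟨x, σ, rfl⟩ := exists_conj hm α
    exact ⟨(⟨_, x, rfl⟩, σ), rfl⟩
  have hbij : Function.Bijective (fun p : N × (F ≃+* F) => (p.1 : MulAut (PSp m F)) * sP m F p.2) := by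
    rw [Nat.bijective_iff_surjective_and_card]
    refine ⟨hsur, ?_⟩
    rw [Nat.card_prod, hNc, hcF, h1, mul_comm]
  obtain ⟨e, -, h2, -⟩ := exists_split_hom N (sP m F)
    (fun α => by
      obtain ⟨x, σ, rfl⟩ := exists_conj hm α
      exact ⟨σ, _, ⟨x, rfl⟩, rfl⟩)
    (fun σ hσ => by
      have h3 := @hbij.1 (1, σ) (⟨_, hσ⟩, 1) (by
        show ((1 : N) : MulAut (PSp m F)) * sP m F σ = sP m F σ * sP m F 1
        rw [map_one (sP m F), mul_one]
        exact one_mul _)
      exact congrArg Prod.snd h3)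
  have hc : IsCyclic (F ≃+* F) := Cfsg.Agent.LieRecognition.FieldSemilinear.isCyclic_ringAut F
  exact ⟨F ≃+* F, inferInstance, e, fun x y => hc.commGroup.mul_comm x y, h2.le⟩

/-- the projective setting -/
theorem proj {F : Type*} [Field F] [CharP F 2] {m : ℕ} (hm : 1 ≤ m) (a : Matrix.symplecticGroup (Fin m) F) :
    Proj (pr m F) (vSp m F) (MulAut.conj (pr m F a)) (a : Matrix (Fin m ⊕ Fin m) (Fin m ⊕ Fin m) F)
      ((a⁻¹ : Matrix.symplecticGroup (Fin m) F) : Matrix (Fin m ⊕ Fin m) (Fin m ⊕ Fin m) F) := by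
  have hb : Subgroup.center (Matrix.symplecticGroup (Fin m) F) = ⊥ := Sigma.Symp.center_eq_bot hm
  have hsc : ∀ (g : Matrix.symplecticGroup (Fin m) F) (c : F), vSp m F g = c • 1 → g = 1 := by
    intro g c hc
    have h1 : g ∈ Subgroup.center (Matrix.symplecticGroup (Fin m) F) := by
      rw [mem_center_iff]
      intro k
      apply Subtype.ext
      rw [Submonoid.coe_mul, Submonoid.coe_mul]
      have hc' : (g : Matrix (Fin m ⊕ Fin m) (Fin m ⊕ Fin m) F) = c • 1 := hc
      rw [hc', smul_mul_assoc, one_mul, mul_smul_comm, mul_one]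
    rwa [hb, mem_bot] at h1
  refine ⟨pr_surjective, Subtype.val_injective, ?_, ?_, ?_, ?_, ?_⟩
  · intro g
    constructor
    · intro h
      have h3 : g ∈ Subgroup.center (Matrix.symplecticGroup (Fin m) F) := (QuotientGroup.eq_one_iff g).1 h
      rw [hb, mem_bot] at h3
      exact ⟨1, by rw [h3, map_one, one_smul]⟩
    · rintro ⟨c, hc⟩
      rw [hsc g c hc, map_one]
  · rw [← Submonoid.coe_mul, mul_inv_cancel]; rfl
  · rw [← Submonoid.coe_mul, inv_mul_cancel]; rfl
  · intro g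
    refine ⟨a * g * a⁻¹, rfl, ?_⟩
    rw [MulAut.conj_apply, map_mul, map_mul, map_inv]
  · intro g c hc
    refine ⟨1, 1, by rw [map_one, one_smul], ?_⟩
    have h1 := hsc g c hc
    rw [h1, map_one] at hc
    have h2 := congrFun (congrFun hc (Sum.inl ⟨0, hm⟩)) (Sum.inl ⟨0, hm⟩)
    rw [Matrix.smul_apply, Matrix.one_apply_eq, smul_eq_mul, mul_one] at h2
    rw [mul_one, h2]

/-- the isometries `1 + c (g - 1)` -/
theorem isom {F : Type*} [Field F] [CharP F 2] {m : ℕ} {g : Matrix.symplecticGroup (Fin m) F}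
    (hg : g * g = 1) (c : F) :
    1 + c • ((g : Matrix (Fin m ⊕ Fin m) (Fin m ⊕ Fin m) F) - 1) ∈ Matrix.symplecticGroup (Fin m) F := by
  have h0 : (2 : F) = 0 := CharTwo.two_eq_zero
  have hgi : ∀ u v, sympForm m F ((g : Matrix (Fin m ⊕ Fin m) (Fin m ⊕ Fin m) F) *ᵥ u) v =
      sympForm m F u ((g : Matrix (Fin m ⊕ Fin m) (Fin m ⊕ Fin m) F) *ᵥ v) := by
    intro u v
    rw [← sympForm_mulVec g.2 u, ← coe_mul_mulVec, hg]
    congr 1
    exact (Matrix.one_mulVec v).symm
  rw [mem_symplecticGroup_iff]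
  intro u v
  rw [Matrix.add_mulVec, Matrix.add_mulVec, Matrix.one_mulVec, Matrix.one_mulVec, Matrix.smul_mulVec, Matrix.smul_mulVec,
    Matrix.sub_mulVec, Matrix.sub_mulVec, Matrix.one_mulVec, Matrix.one_mulVec, sympForm_add_left, sympForm_add_right,
    sympForm_add_right, sympForm_smul_left, sympForm_smul_left, sympForm_smul_right, sympForm_smul_right,
    sympForm_sub_left, sympForm_sub_left, sympForm_sub_right, sympForm_sub_right, sympForm_mulVec g.2, hgi u v]
  linear_combination (c * sympForm m F u ((g : Matrix (Fin m ⊕ Fin m) (Fin m ⊕ Fin m) F) *ᵥ v) -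
    c * sympForm m F u v + c * c * sympForm m F u v -
    c * c * sympForm m F u ((g : Matrix (Fin m ⊕ Fin m) (Fin m ⊕ Fin m) F) *ᵥ v)) * h0

/-- **`PSp_{2m}(q)`: `q = 2`** -/
theorem card_two {F : Type} [Field F] [Fintype F] [CharP F 2] {m : ℕ} (hm : 1 ≤ m) {φ : MulAut (PSp m F)}
    {L : Subgroup (PSp m F)} (h : Act _ φ L) (hφ : φ ∈ (MulAut.conj : PSp m F →* MulAut (PSp m F)).range) :
    Fintype.card F = 2 := by
  obtain ⟨x, rfl⟩ := hφ
  obtain ⟨a, rfl⟩ := pr_surjective x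
  exact card_eq_two fun c => (proj hm a).scalars h fun g hg => ⟨⟨_, isom hg c⟩, rfl⟩

end Cfsg.Agent.H299.RowPSp
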