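import Cfsg.Agent.H412.Tc.HeisDefs

/-!
# S3621, lemma FlagTwo (helper299)
-/

set_option autoImplicit false
set_option linter.unusedSectionVars false

namespace Cfsg.Agent.H299.TcFlagTwo

open Cfsg.Agent.H412.Tc

universe u

section basic

variable {K V : Type*} [Field K] [AddCommGroup V] [Module K V] {B T : Subgroup (GV V)}

/-- `b ∈ Z T` -/
def ZT (K : Type*) {V : Type*} [Field K] [AddCommGroup V] [Module K V] (T : Subgroup (GV V)) (b : GV V) : Prop :=
  ∃ t ∈ T, ∃ c : Kˣ, b = scal K V c * t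

def Fx (T : Subgroup (GV V)) (v : V) : Prop := ∀ t ∈ T, t • v = v

def DC (K : Type*) {V : Type*} [Field K] [AddCommGroup V] [Module K V] (B T : Subgroup (GV V)) : Prop :=
  ∀ b ∈ B, (∀ a ∈ B, (∀ t ∈ T, a * t = t * a) → a * b = b * a) → ZT K T b

def Gen (K : Type*) {V : Type*} [Field K] [AddCommGroup V] [Module K V] (B T : Subgroup (GV V)) (p : V) : Prop :=
  p ≠ 0 ∧ Fx T p ∧ ∀ b ∈ B, Eig K b p → ZT K T b

def Be (K : Type*) {V : Type*} [Field K] [AddCommGroup V] [Module K V] (B T : Subgroup (GV V)) : Prop :=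
  ∃ p p' : V, p ≠ 0 ∧ p' ≠ 0 ∧ Fx T p ∧ Fx T p' ∧ (∀ b ∈ B, Eig K b p → Eig K b p' → ZT K T b) ∧
    ∀ b ∈ B, b • p ≠ p'

def Exc (K : Type*) {V : Type*} [Field K] [AddCommGroup V] [Module K V] (B T : Subgroup (GV V)) : Prop :=
  (∀ p : V, p ≠ 0 → Fx T p → Gen K B T p) ∧
    ∀ p p' : V, p ≠ 0 → Fx T p → p' ≠ 0 → Fx T p' → ∃ b ∈ B, p' = b • p

/-- the subgroup generated by `T` and the involution `y` -/
def ext (T : Subgroup (GV V)) (y : GV V) (hy : y * y = 1) (hc : ∀ t ∈ T, t * y = y * t) : Subgroup (GV V) where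
  carrier := {w | w ∈ T ∨ w * y ∈ T}
  mul_mem' := by
    rintro a b (ha | ha) (hb | hb)
    · exact Or.inl (T.mul_mem ha hb)
    · right
      rw [mul_assoc]
      exact T.mul_mem ha hb
    · right
      have : a * b * y = a * y * b := by rw [mul_assoc, hc b hb, mul_assoc]
      rw [this]
      exact T.mul_mem ha hb
    · left
      have : a * b = a * y * (b * y) := by
        calc a * b = a * (b * (y * y)) := by rw [hy, mul_one]
          _ = a * (b * y * y) := by rw [mul_assoc b]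
          _ = a * (y * (b * y)) := by rw [hc _ hb]
          _ = a * y * (b * y) := by rw [mul_assoc]
      rw [this]
      exact T.mul_mem ha hb
  one_mem' := Or.inl T.one_mem
  inv_mem' := by
    rintro a (ha | ha)
    · exact Or.inl (T.inv_mem ha)
    · right
      have h1 := hc _ ha
      have h2 : a⁻¹ * y = (a * y)⁻¹ := by
        have h3 : a * y * y = a := by rw [mul_assoc, hy, mul_one]
        have h4 : y * (a * y) = a := by rw [← h1, h3]
        rw [eq_inv_iff_mul_eq_one, mul_assoc, h4, inv_mul_cancel]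
      rw [h2]
      exact T.inv_mem ha

theorem split (h2 : (2 : K) ≠ 0) {y : GV V} {u u' w w' : V} (hu : y • u = u) (hu' : y • u' = u') (hw : y • w = -w)
    (hw' : y • w' = -w') (h : u + w = u' + w') : u = u' ∧ w = w' := by
  have h1 : y • (u + w) = y • (u' + w') := by rw [h]
  rw [smul_add, smul_add, hu, hu', hw, hw'] at h1
  have h3 : (2 : K) • (u - u') = 0 := by
    rw [two_smul]
    have e : (u - u') + (u - u') = ((u + w) + (u + -w)) - ((u' + w') + (u' + -w')) := by abel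
    rw [e, h, h1, sub_self]
  have h4 : u = u' := sub_eq_zero.1 ((smul_eq_zero.1 h3).resolve_left h2)
  refine ⟨h4, ?_⟩
  rw [h4] at h
  exact add_left_cancel h

theorem pm [Nontrivial V] (hB : Heis K V 2 B) {a b : GV V} (ha : a ∈ B) (hb : b ∈ B) :
    a * b = b * a ∨ CC (-1 : Kˣ) a b := by
  obtain ⟨c, hc⟩ := hB.cc ha hb
  have h1 := hB.cc_pow ha hb hc
  have h2 : (c : K) * c = 1 := by
    rw [← Units.val_mul, ← pow_two, h1, Units.val_one]
  rcases mul_self_eq_one_iff.1 h2 with h3 | h3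
  · left
    have : c = 1 := Units.ext h3
    rw [this] at hc
    exact cc_one_iff.1 hc
  · right
    have : c = -1 := Units.ext (by rw [h3, Units.val_neg, Units.val_one])
    rwa [this] at hc

theorem CC.neg_smul' {a b : GV V} (h : CC (-1 : Kˣ) a b) (v : V) : a • b • v = -(b • a • v) := by
  rw [h.smul, Units.val_neg, Units.val_one, neg_smul, one_smul]

theorem CC.symm_neg {a b : GV V} (h : CC (-1 : Kˣ) a b) : CC (-1 : Kˣ) b a := by
  have := h.symm
  rwa [inv_neg, inv_one] at this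

theorem smul_ne {b : GV V} {v : V} (hv : v ≠ 0) : b • v ≠ 0 := fun h => hv ((smul_eq_zero_iff_eq b).1 h)

/-- the situation of one step -/
structure Step (K : Type*) {V : Type*} [Field K] [AddCommGroup V] [Module K V] (B T : Subgroup (GV V))
    (y z : GV V) : Prop where
  hB : Heis K V 2 B
  h2 : (2 : K) ≠ 0
  nt : Nontrivial V
  le : T ≤ B
  yB : y ∈ B
  zB : z ∈ B
  yT : ∀ t ∈ T, t * y = y * t
  zT : ∀ t ∈ T, z * t = t * z
  yy : y * y = 1
  yz : CC (-1 : Kˣ) y z

namespace Step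

variable {y z : GV V} (S : Step K B T y z)
include S

theorem fxT {p : V} (h : Fx (ext T y S.yy S.yT) p) : Fx T p := fun t ht => h t (Or.inl ht)

theorem fxy {p : V} (h : Fx (ext T y S.yy S.yT) p) : y • p = p :=
  h y (Or.inr (by rw [S.yy]; exact T.one_mem))

theorem fx_of {p : V} (h : Fx T p) (hy : y • p = p) : Fx (ext T y S.yy S.yT) p := by
  rintro w (hw | hw)
  · exact h w hw
  · have h1 : w = (w * y) * y := by rw [mul_assoc, S.yy, mul_one]
    rw [h1, mul_smul, hy, h _ hw]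

theorem fxz {p : V} (h : Fx T p) : Fx T (z • p) := by
  intro t ht
  rw [← mul_smul, ← S.zT t ht, mul_smul, h t ht]

theorem yz_smul {p : V} (hy : y • p = p) : y • z • p = -(z • p) := by
  rw [CC.neg_smul' S.yz, hy]

/-- the parity argument -/
theorem even {b : GV V} (hb : ZT K (ext T y S.yy S.yT) b) {p₁ p₂ : V} (h1 : p₁ ≠ 0) (h2 : p₂ ≠ 0)
    (f1 : Fx (ext T y S.yy S.yT) p₁) (f2 : Fx (ext T y S.yy S.yT) p₂) {l : Kˣ} (e1 : b • p₁ = (l : K) • p₁)
    (e2 : b • z • p₂ = (l : K) • z • p₂) : ZT K T b := by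
  obtain ⟨w, hw, c, rfl⟩ := hb
  rcases hw with hw | hw
  · exact ⟨w, hw, c, rfl⟩
  · exfalso
    have h3 : (c : K) = l := by
      rw [mul_smul, f1 w (Or.inr hw), scal_smul] at e1
      exact smul_left_injective K h1 e1
    have h4 : w = (w * y) * y := by rw [mul_assoc, S.yy, mul_one]
    rw [mul_smul, scal_smul, h4, mul_smul, S.yz_smul (S.fxy f2), smul_neg, S.fxz (S.fxT f2) _ hw, h3, smul_neg] at e2
    have h5 : (2 : K) • ((l : K) • z • p₂) = 0 := by
      rw [two_smul]
      nth_rewrite 1 [← e2]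
      rw [neg_add_cancel]
    rcases smul_eq_zero.1 h5 with h6 | h6
    · exact S.h2 h6
    · rcases smul_eq_zero.1 h6 with h7 | h7
      · exact l.ne_zero h7
      · exact smul_ne h2 h7

/-- an element commuting with `y` with eigenvector `p + z p'` -/
theorem comm_case {b : GV V} (hb : b ∈ B) (hby : b * y = y * b) {p p' : V} (f1 : y • p = p) (f2 : y • p' = -p') {l : Kˣ}
    (e : b • (p + p') = (l : K) • (p + p')) : b • p = (l : K) • p ∧ b • p' = (l : K) • p' := by
  rw [smul_add, smul_add] at e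
  refine TcFlagTwo.split S.h2 (y := y) ?_ ?_ ?_ ?_ e
  · rw [← mul_smul, ← hby, mul_smul, f1]
  · rw [S.hB.linb S.yB, f1]
  · rw [← mul_smul, ← hby, mul_smul, f2, smul_neg]
  · rw [S.hB.linb S.yB, f2, smul_neg]

theorem anti_case {b : GV V} (hb : b ∈ B) (hby : CC (-1 : Kˣ) y b) {p p' : V} (f1 : y • p = p) (f2 : y • p' = -p')
    {l : Kˣ} (e : b • (p + p') = (l : K) • (p + p')) : b • p = (l : K) • p' ∧ b • p' = (l : K) • p := by
  rw [smul_add, smul_add] at e
  have h := TcFlagTwo.split S.h2 (y := y) (u := b • p') (u' := (l : K) • p) (w := b • p) (w' := (l : K) • p') ?_ ?_ ?_ ?_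
    (by rw [add_comm, e])
  · exact ⟨h.2, h.1⟩
  · rw [CC.neg_smul' hby, f2, smul_neg, neg_neg]
  · rw [S.hB.linb S.yB, f1]
  · rw [CC.neg_smul' hby, f1]
  · rw [S.hB.linb S.yB, f2, smul_neg]

theorem sum_ne {p p' : V} (hp : p ≠ 0) (f1 : y • p = p) (f2 : y • p' = -p') : p + p' ≠ 0 := by
  intro h
  have := TcFlagTwo.split S.h2 (y := y) (u := p) (u' := 0) (w := p') (w' := 0) f1 (smul_zero _) f2
    (by rw [smul_zero, neg_zero]) (by rw [h, add_zero])
  exact hp this.1

/-- `b z p' = λ z p'` implies `Eig b p'` -/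
theorem eig_of_z {b : GV V} (hb : b ∈ B) {p : V} {l : Kˣ} (e : b • z • p = (l : K) • z • p) : Eig K b p := by
  obtain ⟨c, hc⟩ := S.hB.cc hb S.zB
  rw [hc.smul] at e
  refine ⟨c⁻¹ * l, ?_⟩
  have h1 : z • ((c : K) • b • p) = z • ((l : K) • p) := by
    rw [S.hB.linb S.zB, S.hB.linb S.zB, e]
  have h2 := smul_left_cancel z h1
  rw [Units.val_mul, mul_smul, ← h2, smul_smul, ← Units.val_mul, inv_mul_cancel, Units.val_one, one_smul]

/-- (1) -/
theorem alpha_of_beta (h : Be K B (ext T y S.yy S.yT)) : ∃ p, Gen K B T p := by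
  have := S.nt
  obtain ⟨p, p', hp, hp', fp, fp', hcom, horb⟩ := h
  have f1 := S.fxy fp
  have f2 := S.yz_smul (S.fxy fp')
  refine ⟨p + z • p', S.sum_ne hp f1 f2, ?_, ?_⟩
  · intro t ht
    rw [smul_add, S.fxT fp t ht, S.fxz (S.fxT fp') t ht]
  · rintro b hb ⟨l, hl⟩
    rcases pm S.hB hb S.yB with hby | hby
    · obtain ⟨e1, e2⟩ := S.comm_case hb hby f1 f2 hl
      exact S.even (hcom b hb ⟨l, e1⟩ (S.eig_of_z hb e2)) hp hp' fp fp' e1 e2
    · exfalso
      obtain ⟨e1, e2⟩ := S.anti_case hb (CC.symm_neg hby) f1 f2 hl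
      refine horb (scal K V l⁻¹ * (z⁻¹ * b)) (B.mul_mem (S.hB.scal_mem _) (B.mul_mem (B.inv_mem S.zB) hb)) ?_
      have hz : Lin K z⁻¹ := (S.hB.linb S.zB : Lin K z).inv
      rw [mul_smul, mul_smul, e1, hz, inv_smul_smul, scal_smul, smul_smul, ← Units.val_mul, inv_mul_cancel,
        Units.val_one, one_smul]

/-- (2), (3) -/
theorem beta_of {p p' : V} (hp : p ≠ 0) (hp' : p' ≠ 0) (fp : Fx (ext T y S.yy S.yT) p)
    (fp' : Fx (ext T y S.yy S.yT) p')
    (hcom : ∀ b ∈ B, Eig K b p → Eig K b p' → ZT K (ext T y S.yy S.yT) b) : Be K B T := by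
  have := S.nt
  have f1 := S.fxy fp'
  have f2 := S.yz_smul (S.fxy fp)
  refine ⟨p, p' + z • p, hp, S.sum_ne hp' f1 f2, S.fxT fp, ?_, ?_, ?_⟩
  · intro t ht
    rw [smul_add, S.fxT fp' t ht, S.fxz (S.fxT fp) t ht]
  · rintro b hb ⟨m, hm⟩ ⟨l, hl⟩
    have hby : b * y = y * b :=
      S.hB.commute_of_eig hb S.yB hp ⟨m, hm⟩ ⟨1, by rw [Units.val_one, one_smul, S.fxy fp]⟩
    obtain ⟨e1, e2⟩ := S.comm_case hb hby f1 f2 hl
    exact S.even (hcom b hb ⟨m, hm⟩ ⟨l, e1⟩) hp' hp fp' fp e1 e2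
  · intro b hb h
    rcases pm S.hB hb S.yB with hby | hby
    · have h1 : y • b • p = b • p := by rw [← mul_smul, ← hby, mul_smul, S.fxy fp]
      rw [h, smul_add, f1, f2] at h1
      have h3 := TcFlagTwo.split S.h2 (y := y) f1 f1 (by rw [smul_neg, f2]) f2 h1
      have h4 : (2 : K) • (z • p) = 0 := by
        rw [two_smul]
        nth_rewrite 1 [← h3.2]
        rw [neg_add_cancel]
      exact smul_ne hp ((smul_eq_zero.1 h4).resolve_left S.h2)
    · have h1 : y • b • p = -(b • p) := by rw [CC.neg_smul' (CC.symm_neg hby), S.fxy fp]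
      rw [h, smul_add, f1, f2, neg_add] at h1
      have h3 := TcFlagTwo.split S.h2 (y := y) f1 (by rw [smul_neg, f1]) (by rw [smul_neg, f2]) (by rw [smul_neg, f2]) h1
      have h4 : (2 : K) • p' = 0 := by
        rw [two_smul]
        nth_rewrite 1 [h3.1]
        rw [neg_add_cancel]
      exact hp' ((smul_eq_zero.1 h4).resolve_left S.h2)

/-- (4) -/
theorem alpha_of_exc [Finite K] (hq : 7 ≤ Nat.card K) {p : V} (h : Gen K B (ext T y S.yy S.yT) p) :
    ∃ p, Gen K B T p := by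
  classical
  have := S.nt
  obtain ⟨hp, fp, hgen⟩ := h
  have f1 := S.fxy fp
  obtain ⟨ζ, hζ⟩ := S.hB.pow z S.zB
  -- choice of `t`
  obtain ⟨t, ht1, ht2⟩ : ∃ t : Kˣ, (t : K) * t * ζ ≠ 1 ∧ (t : K) * t * ζ ≠ -1 := by
    by_contra hcon
    push Not at hcon
    have : Fintype K := Fintype.ofFinite K
    rw [Nat.card_eq_fintype_card] at hq
    let P : Polynomial K := (Polynomial.C ((ζ : K)^2) * Polynomial.X ^ 4 - 1) * Polynomial.X
    have hP0 : P ≠ 0 := by
      intro h0
      have h1 : P.coeff 1 = 0 := by rw [h0]; simp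
      simp only [P] at h1
      rw [Polynomial.coeff_mul_X] at h1
      simp at h1
    have hdeg : P.natDegree ≤ 5 := by
      simp only [P]
      compute_degree
    have h1 : Fintype.card K ≤ P.roots.toFinset.card := by
      rw [← Finset.card_univ]
      refine Finset.card_le_card fun t _ => ?_
      rw [Multiset.mem_toFinset, Polynomial.mem_roots hP0, Polynomial.IsRoot.def]
      simp only [P, Polynomial.eval_mul, Polynomial.eval_sub, Polynomial.eval_C, Polynomial.eval_pow,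
        Polynomial.eval_X, Polynomial.eval_one]
      by_cases ht : t = 0
      · rw [ht, mul_zero]
      · have h3 := hcon (Units.mk0 t ht)
        simp only [Units.val_mk0] at h3
        by_cases h4 : t * t * ζ = 1
        · have h5 : (ζ : K)^2 * t^4 - 1 = 0 := by linear_combination (t * t * ζ + 1) * h4
          rw [h5, zero_mul]
        · have h6 := h3 h4
          have h5 : (ζ : K)^2 * t^4 - 1 = 0 := by linear_combination (t * t * ζ - 1) * h6
          rw [h5, zero_mul]
    have h2 := (Multiset.toFinset_card_le P.roots).trans (Polynomial.card_roots' P)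
    omega
  have hzL : Lin K z := S.hB.linb S.zB
  set p' := (t : K) • z • p with hp'
  have f2 : y • p' = -p' := by
    rw [hp', S.hB.linb S.yB, S.yz_smul f1, smul_neg]
  refine ⟨p + p', S.sum_ne hp f1 f2, ?_, ?_⟩
  · intro s hs
    rw [smul_add, S.fxT fp s hs, hp', S.hB.linb (S.le hs), S.fxz (S.fxT fp) s hs]
  · rintro b hb ⟨l, hl⟩
    rcases pm S.hB hb S.yB with hby | hby
    · obtain ⟨e1, e2⟩ := S.comm_case hb hby f1 f2 hl
      refine S.even (hgen b hb ⟨l, e1⟩) hp hp fp fp e1 ?_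
      rw [hp', S.hB.linb hb, smul_comm (l : K) (t : K)] at e2
      exact smul_right_injective V t.ne_zero e2
    · exfalso
      obtain ⟨e1, e2⟩ := S.anti_case hb (CC.symm_neg hby) f1 f2 hl
      -- `s = (l t z)⁻¹ b`
      obtain ⟨s, hs⟩ : ∃ s, s = scal K V (l * t)⁻¹ * (z⁻¹ * b) := ⟨_, rfl⟩
      have hsB : s ∈ B := by
        rw [hs]
        exact B.mul_mem (S.hB.scal_mem _) (B.mul_mem (B.inv_mem S.zB) hb)
      have hsp : s • p = p := by
        have h0 : z⁻¹ • b • p = ((l * t : Kˣ) : K) • p := by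
          rw [e1, hp', hzL.inv, hzL.inv, inv_smul_smul, Units.val_mul, mul_smul]
        rw [hs, mul_smul, mul_smul, h0, scal_smul, smul_smul, ← Units.val_mul, inv_mul_cancel, Units.val_one, one_smul]
      obtain ⟨w, hw, e, rfl⟩ := hgen s hsB ⟨1, by rw [hsp, Units.val_one, one_smul]⟩
      have he : e = 1 := by
        rw [mul_smul, fp w hw, scal_smul] at hsp
        apply Units.ext
        rw [Units.val_one]
        exact smul_left_injective K hp (by show (e : K) • p = (1 : K) • p; rw [hsp, one_smul])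
      rw [he, map_one, one_mul] at hs
      have hb' : b = scal K V (l * t) * (z * w) := by
        rw [hs]
        have h3 : z * (scal K V (l * t)⁻¹ * (z⁻¹ * b)) = scal K V (l * t)⁻¹ * b := by
          rw [← mul_assoc, hzL.scal_comm, mul_assoc, mul_inv_cancel_left]
        rw [h3, ← mul_assoc, ← map_mul, mul_inv_cancel, map_one, one_mul]
      -- `w z p = ± z p`
      have hwz : w • z • p = z • p ∨ w • z • p = -(z • p) := by
        rcases hw with hw | hw
        · exact Or.inl (S.fxz (S.fxT fp) w hw)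
        · right
          have h4 : w = (w * y) * y := by rw [mul_assoc, S.yy, mul_one]
          rw [h4, mul_smul, S.yz_smul f1, smul_neg, S.fxz (S.fxT fp) _ hw]
      have hzz : z • z • p = (ζ : K) • p := by
        rw [← mul_smul, ← pow_two, hζ, scal_smul]
      have hwB : Lin K w := by
        have h5 : w ∈ B := by
          rcases hw with hw | hw
          · exact S.le hw
          · have h4 : w = (w * y) * y := by rw [mul_assoc, S.yy, mul_one]
            rw [h4]
            exact B.mul_mem (S.le hw) S.yB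
        exact S.hB.linb h5
      rw [hb', mul_smul, mul_smul, hp', hwB, scal_smul] at e2
      rcases hwz with h5 | h5
      · rw [h5, hzL, hzz, smul_smul, smul_smul] at e2
        have h6 := smul_left_injective K hp e2
        simp only [Units.val_mul] at h6
        apply ht1
        have h7 : (l : K) * (t * t * ζ) = l * 1 := by linear_combination h6
        exact mul_left_cancel₀ l.ne_zero h7
      · rw [h5, smul_neg, smul_neg, hzL, hzz, smul_neg, smul_smul, smul_smul, ← neg_smul] at e2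
        have h6 := smul_left_injective K hp e2
        simp only [Units.val_mul] at h6
        apply ht2
        have h7 : (l : K) * (t * t * ζ) = l * (-1) := by linear_combination -h6
        exact mul_left_cancel₀ l.ne_zero h7

/-- `D(T) ⇒ D(T')` -/
theorem dc (hD : DC K B T) : DC K B (ext T y S.yy S.yT) := by
  have := S.nt
  intro d hd hcd
  -- `C_B(T) = C_B(T') ∪ C_B(T') z`
  have key : ∀ d' ∈ B, (∀ a ∈ B, (∀ t ∈ ext T y S.yy S.yT, a * t = t * a) → a * d' = d' * a) → z * d' = d' * z →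
      ZT K T d' := by
    intro d' hd' h1 hz
    refine hD d' hd' fun a ha haT => ?_
    have hcase : ∀ a' ∈ B, (∀ t ∈ T, a' * t = t * a') → a' * y = y * a' → a' * d' = d' * a' := by
      intro a' ha' h3 h4
      refine h1 a' ha' ?_
      rintro w (hw | hw)
      · exact h3 w hw
      · calc a' * w = a' * (w * y) * y := by rw [mul_assoc, mul_assoc, S.yy, mul_one]
          _ = w * y * a' * y := by rw [h3 _ hw]
          _ = w * y * (y * a') := by rw [mul_assoc, h4]
          _ = w * a' := by rw [← mul_assoc, mul_assoc w, S.yy, mul_one]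
    rcases pm S.hB ha S.yB with hay | hay
    · exact hcase a ha haT hay
    · -- `a z` commutes with `y`
      have h3 : (a * z) * y = y * (a * z) := by
        have h4 : CC ((-1 : Kˣ) * (-1)) (a * z) y := CC.mul_left (S.hB.linb ha) hay (CC.symm_neg S.yz)
        rw [neg_mul_neg, one_mul] at h4
        exact cc_one_iff.1 h4
      have h5 : (a * z) * d' = d' * (a * z) := by
        refine hcase _ (B.mul_mem ha S.zB) (fun t ht => ?_) h3
        rw [mul_assoc, S.zT t ht, ← mul_assoc, haT t ht, mul_assoc]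
      have h6 : a * d' * z = d' * a * z := by
        rw [mul_assoc, ← hz, ← mul_assoc, h5, mul_assoc]
      exact mul_right_cancel h6
  rcases pm S.hB S.zB hd with hz | hz
  · obtain ⟨t, ht, c, hc⟩ := key d hd hcd hz
    exact ⟨t, Or.inl ht, c, hc⟩
  · have h1 : z * (d * y) = (d * y) * z := by
      have h4 : CC ((-1 : Kˣ) * (-1)) z (d * y) := CC.mul_right (S.hB.linb hd) hz (CC.symm_neg S.yz)
      rw [neg_mul_neg, one_mul] at h4
      exact cc_one_iff.1 h4
    obtain ⟨t, ht, c, hc⟩ := key (d * y) (B.mul_mem hd S.yB) (fun a ha haT => by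
      have hay := haT y (Or.inr (by rw [S.yy]; exact T.one_mem))
      rw [← mul_assoc, hcd a ha haT, mul_assoc, hay, mul_assoc]) h1
    refine ⟨t * y, Or.inr ?_, c, ?_⟩
    · rw [mul_assoc, S.yy, mul_one]
      exact ht
    · rw [← mul_assoc, ← hc, mul_assoc, S.yy, mul_one]

end Step

/-- flags -/
structure Flag (K : Type*) {V : Type*} [Field K] [AddCommGroup V] [Module K V] (B T : Subgroup (GV V)) : Prop where
  le : T ≤ B
  dc : DC K B T
  fx : ∃ v : V, v ≠ 0 ∧ Fx T v

def Max (K : Type*) {V : Type*} [Field K] [AddCommGroup V] [Module K V] (B T : Subgroup (GV V)) : Prop :=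
  ∀ y ∈ B, (∀ t ∈ T, t * y = y * t) → y * y = 1 → ZT K T y

theorem exists_z [Nontrivial V] (hB : Heis K V 2 B) (hD : DC K B T) {y : GV V} (hy : y ∈ B) (hyT : ¬ ZT K T y) :
    ∃ z ∈ B, (∀ t ∈ T, z * t = t * z) ∧ CC (-1 : Kˣ) y z := by
  by_contra hcon
  push Not at hcon
  refine hyT (hD y hy fun a ha haT => ?_)
  rcases pm hB ha hy with h | h
  · exact h
  · exact absurd (CC.symm_neg h) (hcon a ha haT)

theorem ZT.scal {y : GV V} {c : Kˣ} (h : ZT K T (scal K V c * y)) : ZT K T y := by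
  obtain ⟨t, ht, d, hd⟩ := h
  refine ⟨t, ht, c⁻¹ * d, ?_⟩
  rw [map_mul, mul_assoc, ← hd, ← mul_assoc, ← map_mul, inv_mul_cancel, map_one, one_mul]

theorem Max.gen [Nontrivial V] (hB : Heis K V 2 B) (hT : T ≤ B) (h : Max K B T) {p : V} (hp : p ≠ 0) (fp : Fx T p) :
    Gen K B T p := by
  refine ⟨hp, fp, ?_⟩
  rintro b hb ⟨l, hl⟩
  have hbL : Lin K b := hB.linb hb
  have hbT : ∀ t ∈ T, t * b = b * t := fun t ht =>
    hB.commute_of_eig (hT ht) hb hp ⟨1, by rw [fp t ht, Units.val_one, one_smul]⟩ ⟨l, hl⟩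
  have hb'B : scal K V l⁻¹ * b ∈ B := B.mul_mem (hB.scal_mem _) hb
  refine (h (scal K V l⁻¹ * b) hb'B ?_ ?_).scal
  · intro t ht
    have htL : Lin K t := hB.linb (hT ht)
    rw [← mul_assoc, htL.scal_comm, mul_assoc, hbT t ht, mul_assoc]
  · obtain ⟨c, hc⟩ := hB.pow _ hb'B
    have hfix : (scal K V l⁻¹ * b) • p = p := by
      rw [mul_smul, hl, scal_smul, smul_smul, ← Units.val_mul, inv_mul_cancel, Units.val_one, one_smul]
    have h1 : ((scal K V l⁻¹ * b) ^ 2) • p = p := by rw [pow_two, mul_smul, hfix, hfix]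
    rw [hc, scal_smul] at h1
    have h3 : c = 1 := by
      apply Units.ext
      rw [Units.val_one]
      exact smul_left_injective K hp (by show (c : K) • p = (1 : K) • p; rw [h1, one_smul])
    rw [← pow_two, hc, h3, map_one]

theorem Flag.exists_step [Nontrivial V] (hB : Heis K V 2 B) (h2 : (2 : K) ≠ 0) (hT : Flag K B T) {y : GV V} (hy : y ∈ B)
    (hyT : ∀ t ∈ T, t * y = y * t) (hyy : y * y = 1) (hn : ¬ ZT K T y) :
    ∃ y' z, ¬ ZT K T y' ∧ ∃ S : Step K B T y' z, Flag K B (ext T y' S.yy S.yT) ∧ T < ext T y' S.yy S.yT := by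
  have hyL : Lin K y := hB.linb hy
  obtain ⟨v, hv, fv⟩ := hT.fx
  -- scaling
  obtain ⟨y', hy'B, hy'T, hy'y, hn', w, hw, fw, hyw⟩ : ∃ y' ∈ B, (∀ t ∈ T, t * y' = y' * t) ∧ y' * y' = 1 ∧
      ¬ ZT K T y' ∧ ∃ w, w ≠ 0 ∧ Fx T w ∧ y' • w = w := by
    by_cases h0 : v + y • v = 0
    · refine ⟨scal K V (-1) * y, B.mul_mem (hB.scal_mem _) hy, ?_, ?_, fun h => hn h.scal, v, hv, fv, ?_⟩
      · intro t ht
        have htL : Lin K t := hB.linb (hT.le ht)
        rw [← mul_assoc, htL.scal_comm, mul_assoc, hyT t ht, mul_assoc]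
      · calc scal K V (-1) * y * (scal K V (-1) * y) = scal K V (-1) * (y * scal K V (-1)) * y := by
              simp only [mul_assoc]
          _ = scal K V (-1) * scal K V (-1) * (y * y) := by rw [hyL.scal_comm]; simp only [mul_assoc]
          _ = 1 := by rw [hyy, mul_one, ← map_mul, neg_mul_neg, one_mul, map_one]
      · have h1 : y • v = -v := by
          rw [add_comm] at h0
          exact eq_neg_of_add_eq_zero_left h0
        rw [mul_smul, h1, scal_smul, Units.val_neg, Units.val_one, neg_smul, one_smul, neg_neg]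
    · refine ⟨y, hy, hyT, hyy, hn, v + y • v, h0, ?_, ?_⟩
      · intro t ht
        rw [smul_add, fv t ht, ← mul_smul, hyT t ht, mul_smul, fv t ht]
      · rw [smul_add, ← mul_smul, hyy, one_smul, add_comm]
  obtain ⟨z, hz, hzT, hyz⟩ := exists_z hB hT.dc hy'B hn'
  let S : Step K B T y' z := ⟨hB, h2, inferInstance, hT.le, hy'B, hz, hy'T, hzT, hy'y, hyz⟩
  refine ⟨y', z, hn', S, ⟨?_, S.dc hT.dc, w, hw, S.fx_of fw hyw⟩, ?_⟩
  · rintro a (ha | ha)
    · exact hT.le ha
    · have h4 : a = (a * y') * y' := by rw [mul_assoc, S.yy, mul_one]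
      rw [h4]
      exact B.mul_mem (hT.le ha) hy'B
  · refine lt_of_le_of_ne (fun t ht => Or.inl ht) fun heq => hn' ?_
    have h5 : y' ∈ ext T y' S.yy S.yT := Or.inr (by rw [S.yy]; exact T.one_mem)
    rw [← heq] at h5
    exact ⟨y', h5, 1, by rw [map_one, one_mul]⟩

/-- every flag satisfies `β` or `exc` -/
theorem Flag.be_or_exc [Finite V] [Nontrivial V] (hB : Heis K V 2 B) (h2 : (2 : K) ≠ 0) :
    ∀ T : Subgroup (GV V), Flag K B T → Be K B T ∨ Exc K B T := by
  have hfin1 : Finite (AddMonoid.End V) := Finite.of_injective (fun f : AddMonoid.End V => (f : V → V))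
    fun f g h => AddMonoidHom.ext fun v => congrFun h v
  have hfin : Finite (GV V) := inferInstance
  intro T
  induction T using WellFoundedGT.induction with
  | ind T ih =>
  intro hT
  by_cases hm : Max K B T
  · by_cases horb : ∀ p p' : V, p ≠ 0 → Fx T p → p' ≠ 0 → Fx T p' → ∃ b ∈ B, p' = b • p
    · exact Or.inr ⟨fun p hp fp => hm.gen hB hT.le hp fp, horb⟩
    · push Not at horb
      obtain ⟨p, p', hp, fp, hp', fp', hb⟩ := horb
      exact Or.inl ⟨p, p', hp, hp', fp, fp', fun b hb h1 _ => (hm.gen hB hT.le hp fp).2.2 b hb h1,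
        fun b hbB h => hb b hbB h.symm⟩
  · unfold Max at hm
    push Not at hm
    obtain ⟨y, hy, hyT, hyy, hn⟩ := hm
    obtain ⟨y', z, -, S, hF, hlt⟩ := hT.exists_step hB h2 hy hyT hyy hn
    rcases ih _ hlt hF with h | h
    · obtain ⟨p, p', hp, hp', fp, fp', hcom, -⟩ := h
      exact Or.inl (S.beta_of hp hp' fp fp' hcom)
    · obtain ⟨p, hp, fp⟩ := hF.fx
      exact Or.inl (S.beta_of hp hp fp fp fun b hb h1 _ => (h.1 p hp fp).2.2 b hb h1)

end basic

section main

variable {K V : Type u} [Field K] [Finite K] [AddCommGroup V] [Finite V] [Module K V] {A B : Subgroup (GV V)}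

theorem FlagTwo.main (S : SetB K V A B 2)
    (hx : ∃ x ∈ B, x ^ 2 = 1 ∧ ∀ c : Kˣ, x ≠ scal K V c)
    (_hpow : ∀ b ∈ B, ∃ c : Kˣ, b ^ 2 = scal K V (c ^ 2) ∨ b ^ 2 = scal K V (-c ^ 2)) :
    (∃ x v, Good K 2 B x v) ∨ ((Nat.card K = 3 ∨ Nat.card K = 5) ∧ EData K B) := by
  have hB := S.heis
  have hnt : Nontrivial V := by
    rw [← Finite.one_lt_card_iff_nontrivial]
    have := S.card
    omega
  obtain ⟨b₀, hb₀, hns⟩ := S.ns
  obtain ⟨ω, hω1, hω⟩ := hB.exists_root hb₀ hns
  have h2 : (2 : K) ≠ 0 := by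
    have := prime_ne_zero Nat.prime_two hω1 hω
    exact_mod_cast this
  obtain ⟨x, hxB, hxx, hxns⟩ := hx
  -- the trivial flag
  have hD0 : DC K B ⊥ := by
    intro b hb hc
    obtain ⟨c, hc⟩ := hB.cent b hb fun a ha => (hc a ha fun t ht => by
      rw [Subgroup.mem_bot.1 ht, mul_one, one_mul]).symm
    exact ⟨1, Subgroup.one_mem _, c, by rw [hc, mul_one]⟩
  have hF0 : Flag K B ⊥ := by
    obtain ⟨v, hv⟩ := exists_ne (0 : V)
    exact ⟨bot_le, hD0, v, hv, fun t ht => by rw [Subgroup.mem_bot.1 ht, one_smul]⟩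
  have hZ0 : ∀ y : GV V, (∀ c : Kˣ, y ≠ scal K V c) → ¬ ZT K ⊥ y := by
    rintro y hy ⟨t, ht, c, hc⟩
    rw [Subgroup.mem_bot.1 ht, mul_one] at hc
    exact hy c hc
  obtain ⟨y₁, z₁, hn₁, S₁, hF₁, -⟩ := hF0.exists_step hB h2 hxB (fun t ht => by
    rw [Subgroup.mem_bot.1 ht, mul_one, one_mul]) (by rw [← pow_two]; exact hxx) (hZ0 x hxns)
  have hns₁ : ∀ c : Kˣ, y₁ ≠ scal K V c := fun c hc => hn₁ ⟨1, Subgroup.one_mem _, c, by rw [hc, mul_one]⟩
  set T₁ := ext ⊥ y₁ S₁.yy S₁.yT with hT₁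
  have mem₁ : ∀ w ∈ T₁, w = 1 ∨ w = y₁ := by
    rintro w (hw | hw)
    · exact Or.inl (Subgroup.mem_bot.1 hw)
    · right
      have h1 := Subgroup.mem_bot.1 hw
      have h3 : w * y₁ * y₁ = y₁ := by rw [h1, one_mul]
      rw [mul_assoc, S₁.yy, mul_one] at h3
      exact h3
  have good : ∀ p, Gen K B T₁ p → ∃ x v, Good K 2 B x v := by
    rintro p ⟨hp, fp, hg⟩
    refine ⟨y₁, p, S₁.yB, by rw [pow_two, S₁.yy], hns₁, hp, S₁.fxy fp, fun b hb he => ?_⟩
    obtain ⟨w, hw, c, rfl⟩ := hg b hb he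
    rcases mem₁ w hw with rfl | rfl
    · exact ⟨0, c, by rw [pow_zero]⟩
    · exact ⟨1, c, by rw [pow_one]⟩
  by_cases hα : ∃ p, Gen K B T₁ p
  · obtain ⟨p, hp⟩ := hα
    exact Or.inl (good p hp)
  have hm : ¬ Max K B T₁ := by
    intro hm
    obtain ⟨p, hp, fp⟩ := hF₁.fx
    exact hα ⟨p, hm.gen hB hF₁.le hp fp⟩
  unfold Max at hm
  push Not at hm
  obtain ⟨y, hy, hyT, hyy, hn⟩ := hm
  obtain ⟨y₂, z₂, hn₂, S₂, hF₂, -⟩ := hF₁.exists_step hB h2 hy hyT hyy hn
  right
  have hexc : Exc K B (ext T₁ y₂ S₂.yy S₂.yT) := by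
    rcases Flag.be_or_exc hB h2 _ hF₂ with h | h
    · exact absurd (S₂.alpha_of_beta h) hα
    · exact h
  obtain ⟨p, hp, fp⟩ := hF₂.fx
  have hq : Nat.card K < 7 := by
    by_contra hcon
    exact hα (S₂.alpha_of_exc (by omega) (hexc.1 p hp fp))
  refine ⟨?_, ?_⟩
  · have : Fintype K := Fintype.ofFinite K
    rw [Nat.card_eq_fintype_card] at hq ⊢
    have h3 : ringChar K ≠ 2 := by
      intro h
      have : CharP K 2 := ringChar.of_eq h
      exact h2 (CharTwo.two_eq_zero)
    have h4 := FiniteField.odd_card_of_char_ne_two h3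
    have h5 := Fintype.one_lt_card (α := K)
    omega
  · have hy₁ : y₁ ∈ T₁ := Or.inr (by rw [S₁.yy]; exact Subgroup.one_mem _)
    -- the element `a`
    let S' : Step K B ⊥ y₂ z₂ := ⟨hB, h2, hnt, bot_le, S₂.yB, S₂.zB, fun t ht => by
      rw [Subgroup.mem_bot.1 ht, mul_one, one_mul], fun t ht => by
      rw [Subgroup.mem_bot.1 ht, mul_one, one_mul], S₂.yy, S₂.yz⟩
    have hD' := S'.dc hD0
    obtain ⟨a, haB, haT, hya⟩ := exists_z hB hD' S₁.yB (by
      rintro ⟨w, hw, c, hc⟩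
      rcases hw with hw | hw
      · rw [Subgroup.mem_bot.1 hw, mul_one] at hc
        exact hns₁ c hc
      · have h1 := Subgroup.mem_bot.1 hw
        have h3 : w = y₂ := by
          have h3 : w * y₂ * y₂ = y₂ := by rw [h1, one_mul]
          rwa [mul_assoc, S₂.yy, mul_one] at h3
        rw [h3] at hc
        refine hn₂ ⟨y₁, hy₁, c⁻¹, ?_⟩
        rw [hc, ← mul_assoc, ← map_mul, inv_mul_cancel, map_one, one_mul])
    refine ⟨y₁, S₁.yB, y₂, S₂.yB, a, haB, z₂, S₂.zB, p, hp, ?_, S₂.fxy fp, ?_, ?_, S₂.yT y₁ hy₁, hya, ?_, S₂.yz, ?_, ?_⟩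
    · exact S₂.fxT fp y₁ hy₁
    · rw [pow_two, S₁.yy]
    · rw [pow_two, S₂.yy]
    · exact (haT y₂ (Or.inr (by rw [S₂.yy]; exact Subgroup.one_mem _))).symm
    · exact (S₂.zT y₁ hy₁).symm
    · intro f hf h1 h3
      have ff : Fx (ext T₁ y₂ S₂.yy S₂.yT) f := by
        refine S₂.fx_of (fun w hw => ?_) h3
        rcases mem₁ w hw with rfl | rfl
        · rw [one_smul]
        · exact h1
      refine ⟨fun b hb he => ?_, hexc.2 p f hp fp hf ff⟩
      obtain ⟨w, hw, c, rfl⟩ := (hexc.1 f hf ff).2.2 b hb he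
      rcases hw with hw | hw
      · rcases mem₁ w hw with rfl | rfl
        · exact ⟨0, 0, c, by simp⟩
        · exact ⟨1, 0, c, by simp⟩
      · have h4 : w = (w * y₂) * y₂ := by rw [mul_assoc, S₂.yy, mul_one]
        rcases mem₁ _ hw with h5 | h5
        · exact ⟨0, 1, c, by rw [h4, h5, pow_zero, pow_one]⟩
        · exact ⟨1, 1, c, by rw [h4, h5, pow_one, pow_one]⟩

end main

end Cfsg.Agent.H299.TcFlagTwo
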