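import Cfsg.Agent.Sigma.RowsExc
import Cfsg.Agent.Sigma.RowsSpOm
import Cfsg.Agent.Sigma.Psu
import Cfsg.Agent.H299.CenAux

/-!
# 2-local subgroups of 3-rank at least 4
-/

set_option autoImplicit false
set_option linter.unusedSectionVars false

namespace Cfsg.Agent.H299.Wide3

open Cfsg Cfsg.Lie Subgroup QuadraticMap
open Cfsg.Agent.ETable

universe u

/-! ### `PSL_n(2)` -/

theorem psl {F : Type*} [Field F] [Fintype F] {n : ℕ} (hF : Fintype.card F = 2) (hn : 8 ≤ n) :
    Wit 3 4 (Matrix.ProjectiveSpecialLinearGroup (Fin n) F) := by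
  have h2 : (2 : F) = 0 := by
    have h3 : ((Fintype.card F : ℕ) : F) = 0 := Nat.cast_card_eq_zero F
    rw [hF] at h3
    exact_mod_cast h3
  refine (Sigma.Psl.four_blocks h2 hn).of_injective (QuotientGroup.mk' _) ?_
  rw [← MonoidHom.ker_eq_bot_iff, QuotientGroup.ker_mk']
  exact Sigma.Psl.center_eq_bot_of_card_two hF

/-! ### `PSU_n(2)` -/

theorem psu {F : Type*} [Field F] [Fintype F] {n : ℕ} (hF : Fintype.card F = 2 ^ 2) (hn : 7 ≤ n) :
    Wit 3 4 (PSU n F 2) := by
  classical
  have h2 : (2 : F) = 0 := by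
    have h3 : ((Fintype.card F : ℕ) : F) = 0 := Nat.cast_card_eq_zero F
    rw [hF] at h3
    push_cast at h3
    have h4 : (2 : F) ^ 2 = 0 := by linear_combination h3
    exact pow_eq_zero_iff (two_ne_zero) |>.1 h4
  obtain ⟨a, ha, ha1⟩ := Exc.exists_unit_of_dvd F Nat.prime_three (by
    rw [Nat.card_eq_fintype_card, hF]; norm_num)
  have ha0 : a ≠ 0 := by
    rintro rfl
    rw [zero_pow (by norm_num)] at ha
    exact zero_ne_one ha
  let k : Fin 4 → Fin n := fun i => ⟨i.val + 2, by omega⟩
  let m : Fin n := ⟨6, by omega⟩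
  let i0 : Fin n := ⟨0, by omega⟩
  let i1 : Fin n := ⟨1, by omega⟩
  have hkm : ∀ i, k i ≠ m := fun i h => by
    have := congrArg Fin.val h
    simp only [k, m] at this
    omega
  have h0k : ∀ i, i0 ≠ k i := fun i h => by
    have := congrArg Fin.val h
    simp only [k, i0] at this
    omega
  have h1k : ∀ i, i1 ≠ k i := fun i h => by
    have := congrArg Fin.val h
    simp only [k, i1] at this
    omega
  have h0m : i0 ≠ m := fun h => by
    have := congrArg Fin.val h
    simp only [i0, m] at this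
    omega
  have h1m : i1 ≠ m := fun h => by
    have := congrArg Fin.val h
    simp only [i1, m] at this
    omega
  have hkk : ∀ i j, i ≠ j → k i ≠ k j := fun i j hij h => hij (by
    have := congrArg Fin.val h
    simp only [k] at this
    exact Fin.ext (by omega))
  have hv : ∀ i j, (Pi.mulSingle (k i) a * Pi.mulSingle m a⁻¹ : Fin n → F) j =
      if j = k i then a else if j = m then a⁻¹ else 1 := by
    intro i j
    rw [Pi.mul_apply, Pi.mulSingle_apply, Pi.mulSingle_apply]
    by_cases h1 : j = k i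
    · rw [if_pos h1, if_pos h1, if_neg (by rw [h1]; exact hkm i), mul_one]
    · rw [if_neg h1, if_neg h1, one_mul]
  refine Sigma.Psu.torus hF h2 (by omega) Nat.prime_three (fun i => Pi.mulSingle (k i) a * Pi.mulSingle m a⁻¹) i0 i1
    (by intro h; have := congrArg Fin.val h; simp only [i0, i1] at this; omega) k h0k ?_ ?_ ?_ ?_ ?_ ?_
  · intro i
    simp [Finset.prod_mul_distrib, Finset.prod_pi_mulSingle', ha0]
  · intro i j
    rw [hv]
    split_ifs
    · exact ha
    · rw [inv_pow]
      show (a ^ 3)⁻¹ = 1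
      rw [ha, inv_one]
    · exact one_pow _
  · intro i
    refine ⟨1, fun j => ?_⟩
    rw [hv]
    split_ifs
    · exact ha
    · rw [inv_pow, ha, inv_one]
    · exact one_pow _
  · intro i
    rw [hv, hv, if_neg (h0k i), if_neg h0m, if_neg (h1k i), if_neg h1m]
  · intro i j hij
    rw [hv, hv, if_neg (h0k i), if_neg h0m, if_neg (hkk i j hij).symm, if_neg (hkm j)]
  · intro i
    rw [hv, hv, if_neg (h0k i), if_neg h0m, if_pos rfl]
    exact ha1

/-! ### `PSp_{2m}(q)` -/

theorem psp {F : Type*} [Field F] [Fintype F] [CharP F 2] {m : ℕ} (hm : 5 ≤ m) : Wit 3 4 (PSp m F) := by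
  obtain ⟨n, rfl⟩ : ∃ n, m = n + 1 := ⟨m - 1, by omega⟩
  exact Sigma.Symp.wit_three.mono (by norm_num) (by omega)

/-! ### orthogonal groups -/

section orth

variable {F : Type*} [Field F] [Fintype F] [CharP F 2]

theorem plus {m : ℕ} (hm : 5 ≤ m) : Wit 3 4 (POmega F (quadFormPlus m F)) := by
  rw [← LieClassical.OrthForms.coe_plusForm]
  have hQ := LieClassical.OrthForms.nondeg_plusForm m F
  have hd : 5 ≤ Fintype.card (Fin m ⊕ Fin m) := by
    rw [Fintype.card_sum, Fintype.card_fin]
    omega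
  have P := Sigma.Orth.pairs_plus (F := F) hm
  exact Sigma.Orth.pomega hQ hd (P.hyp 0).left (P.hyp 0).left_ne (Sigma.Orth.wit_five P)

/-- a cube root of unity -/
theorem exists_cube (h3 : 3 ∣ Fintype.card F - 1) : ∃ c : Fˣ, c ^ 3 = 1 ∧ (c : F) ^ 2 ≠ 1 := by
  obtain ⟨a, ha, ha1⟩ := Exc.exists_unit_of_dvd F Nat.prime_three (by
    rw [Nat.card_eq_fintype_card]; exact h3)
  have ha0 : a ≠ 0 := by
    rintro rfl
    rw [zero_pow (by norm_num)] at ha
    exact zero_ne_one ha
  refine ⟨Units.mk0 a ha0, Units.ext ha, fun h => ha1 ?_⟩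
  have h1 : a ^ 2 = 1 := h
  rw [pow_succ, h1, one_mul] at ha
  exact ha

theorem plus_four {m : ℕ} (hm : 4 ≤ m) (h3 : 3 ∣ Fintype.card F - 1) : Wit 3 4 (POmega F (quadFormPlus m F)) := by
  rw [← LieClassical.OrthForms.coe_plusForm]
  have hQ := LieClassical.OrthForms.nondeg_plusForm m F
  have hd : 5 ≤ Fintype.card (Fin m ⊕ Fin m) := by
    rw [Fintype.card_sum, Fintype.card_fin]
    omega
  have P := Sigma.Orth.pairs_plus (F := F) hm
  obtain ⟨c, hc, hc2⟩ := exists_cube h3
  exact Sigma.Orth.pomega hQ hd (P.hyp 0).left (P.hyp 0).left_ne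
    (Sigma.Orth.wit_torus P (by norm_num) (Sigma.Orth.comm_eq hQ hd) Nat.prime_three (by norm_num) hc hc2)

/-- the additive map `s ↦ s² + s` -/
def as (F : Type*) [Field F] [CharP F 2] : F →+ F where
  toFun s := s ^ 2 + s
  map_zero' := by simp
  map_add' x y := by
    rw [add_sq]
    have : (2 : F) = 0 := CharTwo.two_eq_zero
    rw [this]
    ring

theorem as_apply (s : F) : as F s = s ^ 2 + s := rfl

theorem as_index : (as F).range.index = 2 := by
  have hk : Nat.card (as F).ker = 2 := by
    have h1 : ((as F).ker : Set F) = {0, 1} := by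
      ext s
      simp only [SetLike.mem_coe, AddMonoidHom.mem_ker, as_apply, Set.mem_insert_iff, Set.mem_singleton_iff]
      constructor
      · intro h
        have h2 : s * (s + 1) = 0 := by linear_combination h
        rcases mul_eq_zero.1 h2 with h3 | h3
        · exact Or.inl h3
        · right
          have h4 : (2 : F) = 0 := CharTwo.two_eq_zero
          linear_combination h3 - h4
      · rintro (rfl | rfl)
        · simp
        · have h4 : (2 : F) = 0 := CharTwo.two_eq_zero
          linear_combination h4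
    have h2 : Nat.card (as F).ker = Nat.card (({0, 1} : Set F)) := by
      rw [← h1]
      rfl
    rw [h2, Nat.card_coe_set_eq, Set.ncard_pair zero_ne_one]
  have h1 := AddSubgroup.index_ker (as F)
  have h2 := (as F).ker.card_mul_index
  rw [hk, h1] at h2
  have h3 := (as F).range.card_mul_index
  rw [← h2] at h3
  have h4 : 0 < Nat.card (as F).range := Nat.card_pos
  rw [mul_comm] at h3
  exact Nat.eq_of_mul_eq_mul_right h4 h3

theorem exists_as {x y : F} (hx : ∀ s : F, s ^ 2 + s ≠ x) (hy : ∀ s : F, s ^ 2 + s ≠ y) : ∃ s : F, s ^ 2 + s = x + y := by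
  have h1 : x + y ∈ (as F).range := by
    have := AddSubgroup.add_mem_iff_of_index_two (as_index (F := F)) (a := x) (b := y)
    rw [this]
    constructor
    · rintro ⟨s, hs⟩; exact absurd hs (hx s)
    · rintro ⟨s, hs⟩; exact absurd hs (hy s)
  obtain ⟨s, hs⟩ := h1
  exact ⟨s, hs⟩

theorem minus {m : ℕ} (hm : 4 ≤ m) (a b : F)
    (hab : ∀ z₁ z₂ : F, z₁ ^ 2 + a * z₁ * z₂ + b * z₂ ^ 2 = 0 → z₁ = 0 ∧ z₂ = 0) :
    Wit 3 4 (POmega F (quadFormMinus m F a b)) := by
  rw [← LieClassical.OrthForms.coe_minusForm]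
  have hQ := LieClassical.OrthForms.nondeg_minusForm m F a b hab
  have hd : 5 ≤ Fintype.card ((Fin m ⊕ Fin m) ⊕ Fin 2) := by
    rw [Fintype.card_sum, Fintype.card_sum, Fintype.card_fin, Fintype.card_fin]
    omega
  have P := Sigma.Orth.pairs_minus (F := F) (show 4 ≤ m from hm) a b
  have hu := (P.hyp 0).left
  have hu0 := (P.hyp 0).left_ne
  have h2 : (2 : F) = 0 := CharTwo.two_eq_zero
  by_cases h3 : ∃ c : F, c ^ 3 = 1 ∧ c ≠ 1
  · obtain ⟨c, hc, hc1⟩ := h3
    have hc0 : c ≠ 0 := by
      rintro rfl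
      rw [zero_pow (by norm_num)] at hc
      exact zero_ne_one hc
    exact Sigma.Orth.pomega hQ hd hu hu0 (Sigma.Orth.wit_torus P (by norm_num) (Sigma.Orth.comm_eq hQ hd)
      Nat.prime_three (by norm_num) (c := Units.mk0 c hc0) (Units.ext hc) (fun h => hc1 (by
        have h1 : c ^ 2 = 1 := h
        rw [pow_succ, h1, one_mul] at hc
        exact hc)))
  · have ha : a ≠ 0 := by
      rintro rfl
      obtain ⟨r, hr⟩ := CenAux.exists_sqrt b
      have := hab r 1 (by rw [← hr]; linear_combination r ^ 2 * h2)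
      exact one_ne_zero this.2
    obtain ⟨s, hs⟩ := exists_as (F := F) (x := 1) (y := b * (a⁻¹) ^ 2) (by
      intro s hs
      refine h3 ⟨s, ?_, ?_⟩
      · linear_combination (s - 1) * hs + (s - 1) * h2
      · rintro rfl
        have : (1 : F) = 0 := by linear_combination -hs + h2
        exact one_ne_zero this) (by
      intro s hs
      have := hab s a⁻¹ (by
        have h4 : a * a⁻¹ = 1 := mul_inv_cancel₀ ha
        linear_combination s * h4 + hs + (b * a⁻¹ ^ 2) * h2)
      exact inv_ne_zero ha this.2)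
    have h4 : a * a⁻¹ = 1 := mul_inv_cancel₀ ha
    have N : Sigma.Orth.Ani (LieClassical.OrthForms.minusForm m F a b)
        (Pi.single (Sum.inr 0) (1 : F) : (Fin m ⊕ Fin m) ⊕ Fin 2 → F)
        (Pi.single (Sum.inr 0) s + Pi.single (Sum.inr 1) a⁻¹ : (Fin m ⊕ Fin m) ⊕ Fin 2 → F) := by
      refine ⟨?_, ?_, ?_⟩
      · rw [LieClassical.OrthForms.coe_minusForm, LieClassical.OrthForms.quadFormMinus_apply,
          Finset.sum_eq_zero fun i _ => by simp]
        simp
      · rw [LieClassical.OrthForms.coe_minusForm, LieClassical.OrthForms.quadFormMinus_apply,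
          Finset.sum_eq_zero fun i _ => by simp]
        simp
        field_simp
        have h5 : s ^ 2 * a ^ 2 + s * a ^ 2 = a ^ 2 + b := by
          have := congrArg (fun x => x * a ^ 2) hs
          field_simp at this
          linear_combination this
        linear_combination h5 + b * h2
      · rw [LieClassical.OrthForms.polar_minusForm, Finset.sum_eq_zero fun i _ => by simp]
        simp
        linear_combination h4 + s * h2
    refine Sigma.Orth.pomega hQ hd hu hu0 (Sigma.Orth.wit_minus P N (Sigma.Orth.comm_eq hQ hd) ?_ ?_)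
    · intro i
      constructor
      · rw [LieClassical.OrthForms.polar_minusForm, Finset.sum_eq_zero fun i _ => by simp]
        simp
      · rw [LieClassical.OrthForms.polar_minusForm, Finset.sum_eq_zero fun i _ => by simp]
        simp
    · intro i
      constructor
      · rw [LieClassical.OrthForms.polar_minusForm, Finset.sum_eq_zero fun i _ => by simp]
        simp
      · rw [LieClassical.OrthForms.polar_minusForm, Finset.sum_eq_zero fun i _ => by simp]
        simp

end orth

/-! ### exceptional groups -/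

section exc

open Cfsg.Agent.ChevalleyStructure Cfsg.Agent.ChevalleyStructure.Elts
open Cfsg.Agent.ChevalleyStructure.TorusConj Cfsg.Agent.ETable.Exc

/-- **`F4(q)`, `q = 2^f`, `3 ∣ q - 1`.** -/
theorem f4 (F : Type u) [Field F] [Finite F] (h2 : (2 : F) = 0) {c : F} (hc : c ^ 3 = 1) (hc1 : c ≠ 1) :
    Wit 3 4 (chevF4.group F) := by
  have hc0 : c ≠ 0 := by
    rintro rfl
    rw [zero_pow (by norm_num)] at hc
    exact zero_ne_one hc
  exact wit_torus inList_F4 (RingHom.id F) h2 Nat.prime_three (by norm_num) hc hc1 rfl (k := 4)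
    (fun i => hG inList_F4 (chevF4.simple i) c) (fun i s => chevF4.cartan i s)
    (fun i => tor_hG inList_F4 (f4_simple i) hc0) (fun i => hG_mem_group _ _ _) ![3, 2, 1, 0] f4_lt
    (fun i => xG_mem_group _ _ _) f4_tri f4_diag 0 (by decide) fun t _ => xG_mem_group _ _ _

variable {K : Type u} [Field K] {q : ℕ}

/-- `²E₆(q)`, `3 ∣ q - 1` : a split torus -/
theorem twE6_split [Finite K] {φ : K →+* K} (hφ : ∀ x, φ x = x ^ q) (h2 : (2 : K) = 0) {c : K} (hc : c ^ 3 = 1)
    (hc1 : c ≠ 1) (hφc : φ c = c) : Wit 3 4 (twistedE6 K q) := by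
  have hc0 : c ≠ 0 := by
    rintro rfl
    rw [zero_pow (by norm_num)] at hc
    exact zero_ne_one hc
  obtain ⟨s0, s1, s2, s3, s4, s5⟩ := tw_simple
  have hD := inList_E6
  have t0 := tor_hG' hD (tw_rank 0 (by norm_num)) s0 hc0
  have t1 := tor_hG' hD (tw_rank 1 (by norm_num)) s1 hc0
  have t2 := tor_hG' hD (tw_rank 2 (by norm_num)) s2 hc0
  have t3 := tor_hG' hD (tw_rank 3 (by norm_num)) s3 hc0
  have t4 := tor_hG' hD (tw_rank 4 (by norm_num)) s4 hc0
  have t5 := tor_hG' hD (tw_rank 5 (by norm_num)) s5 hc0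
  have m0 : hG hD 56 c * hG hD 36 c ∈ twistedE6 K q := by
    have := E6Fixed.h16_mem hφ c
    rwa [hφc] at this
  have m1 : hG hD 42 c * hG hD 37 c ∈ twistedE6 K q := by
    have := E6Fixed.h35_mem hφ c
    rwa [hφc] at this
  have m2 : hG hD 39 c ∈ twistedE6 K q := E6Fixed.h_single_mem hφ (by decide) (by decide) hφc
  have m3 : hG hD 46 c ∈ twistedE6 K q := E6Fixed.h_single_mem hφ (by decide) (by decide) hφc
  have hneg : (-1 : K) ^ q = -1 := by rw [← hφ, map_neg, map_one]
  refine wit_torus hD φ h2 Nat.prime_three (by norm_num) hc hc1 hφc (k := 4)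
    ![hG hD 56 c * hG hD 36 c, hG hD 42 c * hG hD 37 c, hG hD 39 c, hG hD 46 c] mTw ?_ ?_ ![44, 39, 46, 71]
    (fun i => (tw_fix i).1) (fun i => X_mem hneg (tw_fix i).1 (tw_fix i).2 (one_pow q)) tw_tri tw_diag 71
    (by decide) fun t ht => X_mem hneg (by decide) (by decide +kernel) (by rw [← hφ, ht])
  · intro i
    fin_cases i
    · exact t0.mul t5
    · exact t2.mul t4
    · exact t3
    · exact t1
  · intro i
    fin_cases i
    · exact m0
    · exact m1
    · exact m2
    · exact m3

/-- **`²E6(q)`, `q` even.** -/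
theorem twE6 (K : Type u) [Field K] [Finite K] (q : ℕ) (hq : IsPrimePow q) (h2 : (2 : K) = 0)
    (hK : Nat.card K = q ^ 2) : Wit 3 4 (twistedE6 K q) := by
  have := Fintype.ofFinite K
  have hK' : Fintype.card K = q ^ 2 := by rw [← Nat.card_eq_fintype_card, hK]
  obtain ⟨φ, hφ⟩ := TwistedE6Sigma.exists_frob hq two_ne_zero hK'
  have hqe : Even q := by
    have h1 := even_card K h2
    rw [hK] at h1
    exact (Nat.even_pow.1 h1).1
  have hq3 : q % 3 = 1 ∨ q % 3 = 2 := by
    have h1 : q % 3 < 3 := Nat.mod_lt _ (by norm_num)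
    rcases Nat.eq_zero_or_pos (q % 3) with h3 | h3
    · exfalso
      obtain ⟨p, k, hp, hk, rfl⟩ := hq
      have h4 : 3 ∣ p := Nat.Prime.dvd_of_dvd_pow Nat.prime_three (Nat.dvd_of_mod_eq_zero h3)
      have h5 : p = 3 := ((Nat.prime_dvd_prime_iff_eq Nat.prime_three hp.nat_prime).1 h4).symm
      rw [h5] at hqe
      have h6 := (Nat.even_pow.1 hqe).1
      revert h6
      decide
    · omega
  have hd : 3 ∣ Nat.card K - 1 := by
    rw [hK]
    have h1 : q ^ 2 % 3 = 1 := by
      rw [Nat.pow_mod]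
      rcases hq3 with h | h <;> rw [h]
    omega
  obtain ⟨c, hc, hc1⟩ := exists_unit_of_dvd K Nat.prime_three hd
  have hc0 : c ≠ 0 := by
    rintro rfl
    rw [zero_pow (by norm_num)] at hc
    exact zero_ne_one hc
  have hcq : ∀ n : ℕ, c ^ n = c ^ (n % 3) := by
    intro n
    conv_lhs => rw [← Nat.div_add_mod n 3, pow_add, pow_mul, hc, one_pow, one_mul]
  rcases hq3 with h | h
  · refine twE6_split hφ h2 hc hc1 ?_
    rw [hφ, hcq, h, pow_one]
  · refine twE6_three_four hφ h2 hc hc1 ?_
    rw [hφ, hcq, h]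
    exact eq_inv_of_mul_eq_one_left (by rw [← pow_succ, hc])

end exc

end Cfsg.Agent.H299.Wide3
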